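/-
Binary actions of `SU₃(q)`, `q` even, with point stabilizers of even order.
-/
import Cfsg.Agent.Lib.Perm.BinU1

set_option autoImplicit false
set_option linter.unusedSectionVars false

namespace CfsgLib.Perm.BinU

open Cfsg MulAction CfsgLib.StrEmb CfsgLib.Unitary CfsgLib.Phan Matrix CfsgLib.Perm.Binary
  Cfsg.Agent.S5737 Pointwise

variable {F : Type*} [Field F] [Fintype F] {q : ℕ} [hF : Fact (Fintype.card F = q ^ 2)]
  {X : Type*} [MulAction (SU 3 F q) X] [Finite X]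

local notation "⟪" u ", " v "⟫" => hermForm 3 F q u v

/-- the transvection along `v` fixes `p` -/
def A (q : ℕ) [MulAction (SU 3 F q) X] (p : X) (v : Fin 3 → F) : Prop :=
  ∃ s : SU 3 F q, IsT s v ∧ s • p = p

/-- the stabilizer of the vector `u` fixes `p` -/
def Lu (q : ℕ) [MulAction (SU 3 F q) X] (p : X) (u : Fin 3 → F) : Prop :=
  ∀ g : SU 3 F q, g • u = u → g • p = p

/-- standing hypotheses -/
structure Hyp (F : Type*) [Field F] (q : ℕ) (X : Type*) [MulAction (SU 3 F q) X] : Prop where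
  h2 : (2 : F) = 0
  hq : 3 ≤ q
  hb : Bin (SU 3 F q) X
  hX : ∀ p : X, stabilizer (SU 3 F q) p ≠ ⊤
  hc : ∀ z ∈ Subgroup.center (SU 3 F q), ∀ p : X, z • p = p

theorem A.smul {p : X} {v : Fin 3 → F} (h : A q p v) (g : SU 3 F q) : A q (g • p) (g • v) :=
  let ⟨_, h1, h2⟩ := h
  ⟨_, h1.conj g, conj_smul_smul h2⟩

theorem A.fix {p : X} {v : Fin 3 → F} (h : A q p v) {g : SU 3 F q} (hg : g • p = p) :
    A q p (g • v) := by simpa [hg] using h.smul g

theorem A.ne {p : X} {v : Fin 3 → F} (h : A q p v) : v ≠ 0 := let ⟨_, h1, _⟩ := h; h1.1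

theorem A.iso {p : X} {v : Fin 3 → F} (h : A q p v) : ⟪v, v⟫ = 0 := let ⟨_, h1, _⟩ := h; h1.2.1

theorem Lu.smul {p : X} {u : Fin 3 → F} (h : Lu q p u) (g : SU 3 F q) : Lu q (g • p) (g • u) :=
  fun k hk => by
    rw [← inv_smul_eq_iff, ← mul_smul, ← mul_smul] at hk ⊢
    exact h _ hk

theorem iso_smul {v : Fin 3 → F} (h : ⟪v, v⟫ = 0) (a : F) : ⟪a • v, a • v⟫ = 0 := by
  rw [herm_smul_left, herm_smul_right, h, mul_zero, mul_zero]

theorem nrm {a : F} (h : a ^ (q + 1) = 1) : a * a ^ q = 1 := by rwa [← pow_succ']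

namespace Hyp

variable (h : Hyp F q X)
include h

theorem perp {p : X} {v w : Fin 3 → F} (hv : A q p v) (h0 : w ≠ 0) (hw : ⟪w, w⟫ = 0)
    (hvw : ⟪v, w⟫ = 0) : A q p w := by
  obtain ⟨s, hs, hp⟩ := hv
  obtain ⟨t, ht⟩ := exists_isT h.h2 h0 hw
  have := fix_eq_of_comm h.hb (one_su h.h2) (hs.ord h.h2) (ht.ord h.h2) (hs.comm ht hvw)
  exact ⟨t, ht, show p ∈ fixedBy X t from this ▸ hp⟩

theorem scal {p : X} {v : Fin 3 → F} (hv : A q p v) {a : F} (ha : a ≠ 0) : A q p (a • v) :=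
  h.perp hv (smul_ne_zero ha hv.ne) (iso_smul hv.iso a) (by rw [herm_smul_right, hv.iso, mul_zero])

theorem not_all {p : X} (hp : ∀ v : Fin 3 → F, v ≠ 0 → ⟪v, v⟫ = 0 → A q p v) : False := by
  refine h.hX p (eq_top_of_transSU_mem hF.out (Or.inr (by have := h.hq; omega)) _ fun v hv c hc h0 => ?_)
  by_cases hc0 : c = 0
  · have : transSU hF.out v hv c hc = 1 := su_ext fun x => by
      rw [su_smul_def, coe_transSU, trans_mulVec, hc0, zero_mul, zero_smul, add_zero, one_smul]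
    exact this ▸ Subgroup.one_mem _
  · obtain ⟨a, ha⟩ := exists_norm_eq hF.out (μ := c) (by linear_combination hc - c * h.h2)
    have h1 := isT_trans h0 hv hc ha hc0
    obtain ⟨s, hs, hp⟩ := hp _ h1.1 h1.2.1
    exact h1.unique hs ▸ hp

theorem fix_ne {s t : SU 3 F q} {v w : Fin 3 → F} (hs : IsT s v) (ht : IsT t w) (hvw : ⟪v, w⟫ ≠ 0)
    {p : X} (hp : s • p = p) : fixedBy X s ≠ fixedBy X t := fun e => h.not_all (p := p) fun x h0 hx => by
  by_cases hvx : ⟪v, x⟫ = 0
  · exact h.perp ⟨s, hs, hp⟩ h0 hx hvx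
  have hc : ((⟪v, w⟫ / ⟪v, x⟫) ^ q) ≠ 0 := pow_ne_zero _ (div_ne_zero hvw hvx)
  obtain ⟨g, g1, g2⟩ := witt2 h.h2 hs.2.1 ht.2.1 hvw hs.2.1 (iso_smul hx ((⟪v, w⟫ / ⟪v, x⟫) ^ q))
    (by rw [herm_smul_right, pow_q_pow_q hF.out, div_mul_cancel₀ _ hvx])
  have h1 : A q p (((⟪v, w⟫ / ⟪v, x⟫) ^ q) • x) := ⟨_, g2 ▸ ht.conj g, by
    change p ∈ fixedBy X _
    rw [← smul_fixedBy, ← e, smul_fixedBy, (hs.conj g).unique (g1.symm ▸ hs)]
    exact hp⟩
  simpa [smul_smul, hc] using h.scal h1 (inv_ne_zero hc)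

/-- if a product of two involutions fixes a point, so do the involutions -/
theorem star {s t : SU 3 F q} (hs : orderOf s = 2) (ht : orderOf t = 2) (hst : t * s ≠ 1) {p : X}
    (hp : (t * s) • p = p) {p' : X} {v : Fin 3 → F} (hA : A q p' v) : s • p = p := by
  obtain ⟨v, hv⟩ := exists_isT_of_ord h.h2 hs
  obtain ⟨w, hw⟩ := exists_isT_of_ord h.h2 ht
  by_cases hvw : ⟪v, w⟫ = 0
  · have hc := hv.comm hw hvw
    have := fix_eq_of_comm (X := X) h.hb (one_su h.h2) hs (orderOf_eq_two (by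
      rw [← pow_two, hc.symm.mul_pow, pow_two, pow_two, mul_self_of_orderOf hs,
        mul_self_of_orderOf ht, mul_one]) hst) (hc.mul_right (Commute.refl s))
    exact show p ∈ fixedBy X s from this ▸ hp
  · obtain ⟨r, hr, hr'⟩ := hA
    obtain ⟨p'', hp''⟩ := exists_fix_of_isConj (one_su h.h2 _ _ (hr.ord h.h2) hs) hr'
    exact fix_of_ne h.hb (one_su h.h2) hs ht (h.fix_ne hv hw hvw hp'') hp

theorem span {p : X} {v w : Fin 3 → F} (hv : A q p v) (hw : A q p w) (hvw : ⟪v, w⟫ ≠ 0) {a b : F}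
    (h0 : a • v + b • w ≠ 0) (hx : ⟪a • v + b • w, a • v + b • w⟫ = 0) : A q p (a • v + b • w) := by
  by_cases hb : b = 0
  · exact h.perp hv h0 hx (by simp [hb, herm_smul_right, hv.iso])
  by_cases ha : a = 0
  · exact h.perp hw h0 hx (by simp [ha, herm_smul_right, hw.iso])
  have hwv : ⟪w, v⟫ ≠ 0 := mt (herm_eq_zero_comm hF.out).1 hvw
  simp only [herm_add_left, herm_add_right hF.out, herm_smul_left, herm_smul_right, hv.iso, hw.iso] at hx
  obtain ⟨c, hc⟩ := exists_norm_eq hF.out (μ := a / (b * ⟪w, v⟫)) (by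
    have := pow_ne_zero q hb
    rw [div_pow, mul_pow, herm_conj hF.out]
    field_simp
    linear_combination hx - a * b ^ q * ⟪v, w⟫ * h.h2)
  obtain ⟨s, hs, hp⟩ := h.scal hv (a := c) (by
    rintro rfl
    exact div_ne_zero ha (mul_ne_zero hb hwv) (by simpa using hc.symm))
  have := (h.scal hw hb).fix hp
  rw [hs.2.2, herm_smul_left, herm_smul_right, smul_smul, add_comm] at this
  convert this using 3
  rw [pow_succ, eq_div_iff (mul_ne_zero hb hwv)] at hc
  linear_combination -hc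

theorem lu_of_A {p : X} (hp : ∀ x : Fin 3 → F, x ≠ 0 → ⟪x, x⟫ = 0 → x 0 = 0 → A q p x) :
    Lu q p (ee 0 : Fin 3 → F) := fun g hg => by
  obtain ⟨k, rfl⟩ := (mem_range_emb hF.out (seg 2 3 1 le_rfl) (g := g)).2 fun i hi => by
    fin_cases i
    · exact hg
    · exact absurd rfl (hi 0)
    · exact absurd rfl (hi 1)
  have := eq_top_of_transSU_mem hF.out (Or.inr (by have := h.hq; omega))
    ((stabilizer (SU 3 F q) p).comap (emb (seg 2 3 1 le_rfl))) fun v hv c hc h0 => by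
      have hv' : ⟪![0, v 0, v 1], ![0, v 0, v 1]⟫ = 0 := by
        simpa [herm_def, Fin.sum_univ_succ] using hv
      have e : emb (seg 2 3 1 le_rfl) (transSU hF.out v hv c hc) = transSU hF.out _ hv' c hc := by
        refine su_ext fun x => funext fun i => ?_
        have e1 : hermForm 2 F q (x ∘ seg 2 3 1 le_rfl) v = ⟪x, ![0, v 0, v 1]⟫ := by
          simp [herm_def, Fin.sum_univ_succ, zero_pow_q hF.out]
          rfl
        rw [su_smul_def (transSU _ _ _ _ _), coe_transSU, trans_mulVec]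
        fin_cases i
        · exact (emb_smul_of_ne _ _ _ (by decide)).trans (by simp)
        · exact (emb_smul_apply _ _ _ 0).trans (by
            rw [su_smul_def, coe_transSU, trans_mulVec, e1]; rfl)
        · exact (emb_smul_apply _ _ _ 1).trans (by
            rw [su_smul_def, coe_transSU, trans_mulVec, e1]; rfl)
      rw [Subgroup.mem_comap, e]
      by_cases hc0 : c = 0
      · have : transSU hF.out _ hv' c hc = 1 := su_ext fun x => by
          rw [su_smul_def, coe_transSU, trans_mulVec, hc0, zero_mul, zero_smul, add_zero, one_smul]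
        exact this ▸ Subgroup.one_mem _
      · obtain ⟨a, ha⟩ := exists_norm_eq hF.out (μ := c) (by linear_combination hc - c * h.h2)
        have h1 := isT_trans (fun e => h0 (funext fun i => by
          fin_cases i
          · exact congrFun e 1
          · exact congrFun e 2)) hv' hc ha hc0
        obtain ⟨s, hs, hp⟩ := hp _ h1.1 h1.2.1 (by simp)
        exact h1.unique hs ▸ hp
  exact show k ∈ (stabilizer (SU 3 F q) p).comap _ from this ▸ Subgroup.mem_top k

theorem A_of_lu {p : X} {u x : Fin 3 → F} (hp : Lu q p u) (h0 : x ≠ 0) (hx : ⟪x, x⟫ = 0)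
    (hu : ⟪u, x⟫ = 0) : A q p x := by
  obtain ⟨s, hs⟩ := exists_isT h.h2 h0 hx
  exact ⟨s, hs, hp s (by rw [hs.2.2, hu, zero_smul, add_zero])⟩

theorem zero_of_lu {p : X} {x : Fin 3 → F} (hp : Lu q p (ee 0 : Fin 3 → F)) (hx : A q p x) :
    x 0 = 0 := by
  by_contra h0
  refine h.not_all (p := p) fun y hy0 hy => ?_
  by_cases h1 : y 0 = 0
  · exact h.A_of_lu hp hy0 hy (by rw [herm_ee_left, h1, zero_pow_q hF.out])
  have h3 := h.scal hx (div_ne_zero h1 h0)
  have h4 : ((y 0 / x 0) • x) 0 = y 0 := by simp [div_mul_cancel₀ _ h0]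
  generalize (y 0 / x 0) • x = x at h3 h4
  have h5 := pow_ne_zero q h1
  obtain ⟨g, hg⟩ := exists_su_family hF.out (u := ![ee 0, x]) (w := ![ee 0, y])
    (li_pair h3.iso (by rwa [herm_ee_left, h4])) (li_pair hy (by rwa [herm_ee_left])) (fun i j => by
      fin_cases i <;> fin_cases j <;> simp [herm_ee_left, herm_ee_right hF.out, h4, hy, h3.iso])
    (z := ![0, y 2 ^ q / y 0, y 1 ^ q / y 0]) (by
      rw [herm3] at hy ⊢
      simp only [cons_val_zero, cons_val_one, cons_val, div_pow, pow_q_pow_q hF.out]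
      field_simp
      linear_combination hy - y 0 * y 0 ^ q * h.h2) fun i => by
        fin_cases i
        · simp [herm_ee_right hF.out]
        · simp only [herm3, Fin.mk_one, cons_val_zero, cons_val_one, cons_val]
          linear_combination (y 1 ^ q * y 2 ^ q / y 0) * h.h2
  exact (show g • x = y from hg 1) ▸ h3.fix (hp g (hg 0))

theorem line_of_lu {p : X} {g : SU 3 F q} (hp : Lu q p (ee 0 : Fin 3 → F)) (hg : g • p = p) :
    (g • (ee 0 : Fin 3 → F)) 1 = 0 ∧ (g • (ee 0 : Fin 3 → F)) 2 = 0 := by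
  obtain ⟨ζ, h1, hζ⟩ := exists_norm_one_ne_one hF.out
  have key : ∀ ζ : F, ζ * ζ ^ q = 1 →
      (g • (ee 0 : Fin 3 → F)) 1 + (g • (ee 0 : Fin 3 → F)) 2 * ζ ^ q = 0 := fun ζ hζ => by
    have h3 := h.zero_of_lu hp ((h.A_of_lu (x := ![0, 1, ζ]) hp (fun e => by simpa using congrFun e 1)
      (by simp only [herm3, cons_val_zero, cons_val_one, cons_val, one_pow]
          linear_combination hζ + h.h2) (by simp [herm_ee_left, zero_pow_q hF.out])).fix
      (inv_smul_eq_iff.2 hg.symm))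
    rw [← herm_ee_right hF.out (g⁻¹ • _), herm_inv, herm_eq_zero_comm hF.out, herm3] at h3
    simpa [zero_pow_q hF.out] using h3
  have e1 := key 1 (by simp)
  have e2 := key ζ (nrm hζ)
  have h4 : ζ ^ q - 1 ≠ 0 := fun e => h1 (pow_q_injective hF.out (by rw [one_pow]; exact sub_eq_zero.1 e))
  have e3 : (g • (ee 0 : Fin 3 → F)) 2 = 0 :=
    mul_right_cancel₀ h4 (by rw [one_pow] at e1; linear_combination e2 - e1)
  exact ⟨by simpa [e3] using e1, e3⟩

theorem not_lu {p : X} (hp : Lu q p (ee 0 : Fin 3 → F)) : False := by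
  obtain ⟨μ, h1, hμ⟩ := exists_norm_one_ne_one hF.out
  replace hμ := nrm hμ
  have hμ' : μ ^ q * (μ ^ q) ^ q = 1 := by rwa [pow_q_pow_q hF.out, mul_comm]
  obtain ⟨σ, hσ⟩ := exists_sig (F := F) (q := q)
  obtain ⟨x, hx⟩ := exists_dg (q := q) (a := μ) (b := 1) (c := μ ^ q) (by simpa using hμ) hμ (by simp) hμ'
  obtain ⟨y, hy⟩ := exists_dg (q := q) (a := μ ^ q) (b := μ) (c := 1) (by simpa [mul_comm] using hμ)
    hμ' hμ (by simp)
  obtain ⟨k, k1, k2, k3⟩ := h.hb.test x y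
  have s1 : σ • (ee 0 : Fin 3 → F) = ee 1 := by rw [hσ]; ext i; fin_cases i <;> simp [ee]
  have s2 : σ • (ee 1 : Fin 3 → F) = ee 2 := by rw [hσ]; ext i; fin_cases i <;> simp [ee]
  have s3 : σ • (ee 2 : Fin 3 → F) = ee 0 := by rw [hσ]; ext i; fin_cases i <;> simp [ee]
  have p1 := k1 _ (hp.smul σ x (by rw [s1, hx]; ext i; fin_cases i <;> simp [ee]))
  have p2 := k2 _ ((hp.smul σ).smul σ y (by rw [s1, s2, hy]; ext i; fin_cases i <;> simp [ee]))
  have p0 := k3 _ (hp (y * x) (by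
    rw [mul_smul, hx, hy]; ext i; fin_cases i <;> simp [ee, mul_comm, hμ]))
  have q1 : (σ⁻¹ * k * σ) • p = p := by rw [mul_smul, mul_smul, p1, inv_smul_smul]
  have q2 : (σ⁻¹ * (σ⁻¹ * k * σ) * σ) • p = p := by simp [mul_smul, p2]
  have l1 := h.line_of_lu hp q1
  have l2 := h.line_of_lu hp q2
  have hσ' : ∀ v : Fin 3 → F, σ⁻¹ • v = ![v 1, v 2, v 0] := fun v => by
    rw [inv_smul_eq_iff, hσ]; ext i; fin_cases i <;> simp
  simp only [mul_smul, s1, s2, hσ', cons_val_zero, cons_val_one, cons_val] at l1 l2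
  obtain ⟨b, hb⟩ : ∃ b : F, k • (ee 1 : Fin 3 → F) = b • ee 1 :=
    ⟨(k • (ee 1 : Fin 3 → F)) 1, by ext i; fin_cases i <;> simp [ee_apply, l1.1, l1.2]⟩
  obtain ⟨c, hc⟩ : ∃ c : F, k • (ee 2 : Fin 3 → F) = c • ee 2 :=
    ⟨(k • (ee 2 : Fin 3 → F)) 2, by ext i; fin_cases i <;> simp [ee_apply, l2.1, l2.2]⟩
  obtain ⟨a, ha⟩ : ∃ a : F, k • (ee 0 : Fin 3 → F) = a • ee 0 := by
    have e1 := herm_smul k (ee 0) (ee 1)
    have e2 := herm_smul k (ee 0) (ee 2)
    have n1 : b ≠ 0 := by rintro rfl; exact smul_ne k (v := ee 1) (by simp [ee]) (by simpa using hb)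
    have n2 : c ≠ 0 := by rintro rfl; exact smul_ne k (v := ee 2) (by simp [ee]) (by simpa using hc)
    rw [hb, herm_smul_right, herm_ee_right hF.out, herm_ee_ee hF.out] at e1
    rw [hc, herm_smul_right, herm_ee_right hF.out, herm_ee_ee hF.out] at e2
    simp [n1, n2] at e1 e2
    exact ⟨(k • (ee 0 : Fin 3 → F)) 0, by ext i; fin_cases i <;> simp [ee_apply, e1, e2]⟩
  have hk : ∀ v : Fin 3 → F, k • v = ![a * v 0, b * v 1, c * v 2] := fun v => by
    have : v = v 0 • ee 0 + v 1 • ee 1 + v 2 • ee 2 := by ext i; fin_cases i <;> simp [ee]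
    conv_lhs => rw [this, smul_add, smul_add, smul_comm k, smul_comm k, smul_comm k, ha, hb, hc]
    ext i; fin_cases i <;> simp [ee, mul_comm]
  have z1 := h.hc (k * (σ⁻¹ * k * σ) * (σ⁻¹ * (σ⁻¹ * k * σ) * σ)) (central_of_scalar (a := a * b * c)
    fun v => by
      simp only [mul_smul, hσ, hσ', hk, cons_val_zero, cons_val_one, cons_val]
      ext i; fin_cases i <;> simp <;> ring) p
  rw [mul_smul, q2, mul_smul, q1, p0] at z1
  have hw : ∀ v : Fin 3 → F, wSU (q := q) h.h2 • v = ![v 2, v 1, v 0] := fun v => by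
    rw [su_smul_def, wSU, coe_mkSU]
    ext i; fin_cases i <;> simp [wMat3, mulVec, dotProduct, Fin.sum_univ_three]
  have o1 : orderOf (wSU (q := q) h.h2) = 2 := orderOf_eq_two (su_ext fun v => by
    rw [mul_smul, hw, hw]; ext i; fin_cases i <;> simp) fun e => by
      simpa [e, ee] using congrFun (hw (ee 0)) 0
  have o2 : orderOf (x * wSU (q := q) h.h2) = 2 := orderOf_eq_two (su_ext fun v => by
    simp only [mul_smul, hw, hx]; ext i; fin_cases i <;> simp [← mul_assoc, hμ, (mul_comm _ _).trans hμ])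
      fun e => by
        have : (x * wSU (q := q) h.h2) • (ee 0 : Fin 3 → F) = ee 0 := by rw [e, one_smul]
        rw [mul_smul, hw, hx] at this
        simpa [ee] using congrFun this 0
  have e : x * wSU h.h2 * wSU h.h2 = x := by rw [mul_assoc, mul_self_of_orderOf o1, mul_one]
  have := h.star o1 o2 (by
    rw [e]; rintro rfl; exact h1 (by simpa [ee] using (congrFun (hx (ee 0)) 0).symm)) (e.symm ▸ z1)
    (h.A_of_lu (x := ![0, 1, 1]) hp (fun e => by simpa using congrFun e 1)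
      (by simp [herm3, one_add_one_eq_two, h.h2]) (by simp [herm_ee_left, zero_pow_q hF.out]))
  simpa [hw, ee] using (h.line_of_lu hp this).2

theorem perp_of_A {p : X} {v w : Fin 3 → F} (hv : A q p v) (hw : A q p w) : ⟪v, w⟫ = 0 := by
  by_contra hvw
  obtain ⟨ζ, h1, hζ⟩ := exists_norm_one_ne_one hF.out
  replace hζ := nrm hζ
  have h3 : 1 + ζ ≠ 0 := fun e => h1 (by linear_combination e - h.h2)
  have h4 := pow_ne_zero q h3
  obtain ⟨c, hc⟩ : ∃ c : F, c = ⟪w, v⟫ / (1 + ζ) := ⟨_, rfl⟩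
  have h5 : c ≠ 0 := hc ▸ div_ne_zero (mt (herm_eq_zero_comm hF.out).1 hvw) h3
  obtain ⟨g, g1, g2⟩ := witt2 h.h2 hv.iso hw.iso hvw (v' := ![0, 1, 1]) (w' := c • ![0, 1, ζ])
    (by simp [herm3, one_add_one_eq_two, h.h2]) (iso_smul (by
      simp only [herm3, cons_val_zero, cons_val_one, cons_val, one_pow]
      linear_combination hζ + h.h2) _) (by
      rw [herm_smul_right, hc, div_pow, herm_conj hF.out, div_mul_eq_mul_div, div_eq_iff h4,
        add_pow_q hF.out]
      simp [herm3])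
  refine h.not_lu (p := g • p) (h.lu_of_A fun x h0 hx hx0 => ?_)
  have e : x = (x 1 - (x 1 + x 2) / (1 + ζ)) • g • v + ((x 1 + x 2) / (1 + ζ) / c) • g • w := by
    rw [g1, g2, smul_smul, div_mul_cancel₀ _ h5]
    ext i
    fin_cases i
    · simp [hx0]
    · simp
    · simp
      field_simp
      linear_combination (x 2 - x 1 * ζ) * h.h2
  rw [e] at h0 hx ⊢
  exact h.span (hv.smul g) (hw.smul g) (by rwa [herm_smul]) h0 hx

end Hyp

end CfsgLib.Perm.BinU
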