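/-
Binary actions of `SU₃(q)`, `q` even: squares of elements with a fixed point are central.
-/
import Cfsg.Agent.Lib.Perm.BinU2

set_option autoImplicit false
set_option linter.unusedSectionVars false

namespace CfsgLib.Perm.BinU

open Cfsg MulAction CfsgLib.StrEmb CfsgLib.Unitary CfsgLib.Phan Matrix CfsgLib.Perm.Binary
  Cfsg.Agent.S5737 Pointwise

variable {F : Type*} [Field F] [Fintype F] {q : ℕ} [hF : Fact (Fintype.card F = q ^ 2)]
  {X : Type*} [MulAction (SU 3 F q) X] [Finite X]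

local notation "⟪" u ", " v "⟫" => hermForm 3 F q u v

theorem conj_fix {G Y : Type*} [Group G] [MulAction G Y] {g k : G} {p : Y} (h : g • p = p) :
    (k⁻¹ * g * k) • k⁻¹ • p = k⁻¹ • p := by
  rw [mul_smul, mul_smul, smul_inv_smul, h]

theorem Tri.pow {g : SU 3 F q} {l n l' : F} (h : Tri g l n l' 0 0 0) (k : ℕ) :
    Tri (g ^ k) (l ^ k) (n ^ k) (l' ^ k) 0 0 0 := fun a b c => by
  induction k with
  | zero => simp
  | succ k ih =>
    rw [pow_succ', mul_smul, ih, h]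
    congr 1 <;> ring

theorem exists_cube_ne (h2 : (2 : F) = 0) (hq : 3 ≤ q) :
    ∃ m : F, m * m ^ q = 1 ∧ m ^ 3 + (m ^ q) ^ 3 ≠ 0 := by
  by_contra h
  push Not at h
  have h1 : ∀ m : F, m ^ (q + 1) = 1 → m ^ 3 = 1 := fun m hm => by
    have e := nrm hm
    have : (m ^ 3 - 1) ^ 2 = 0 := by
      linear_combination m ^ 3 * h m e - (m ^ 2 * (m ^ q) ^ 2 + m * m ^ q + 1) * e - m ^ 3 * h2
    exact sub_eq_zero.1 (pow_eq_zero_iff two_ne_zero |>.1 this)
  have h3 := Nat.card_le_card_of_injective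
    (fun m : {x : F // x ^ (q + 1) = 1} => (⟨m.1, h1 m.1 m.2⟩ : {x : F // x ^ 3 = 1}))
    fun _ _ e => Subtype.ext (by simpa using e)
  rw [card_norm_one hF.out, card_pow_eq_one F three_ne_zero] at h3
  have := Nat.gcd_le_right (Fintype.card F - 1) three_pos
  omega

namespace Hyp

variable (h : Hyp F q X) (hA : ∀ p : X, ∃ v : Fin 3 → F, A q p v)
include h

theorem line {p : X} {v : Fin 3 → F} (hv : A q p v) {g : SU 3 F q} (hg : g • p = p) :
    ∃ a : F, g • v = a • v :=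
  prop_of_perp h.h2 hv.ne hv.iso (hv.fix hg).iso (h.perp_of_A (hv.fix hg) hv)

theorem tri {p : X} (hv : A q p (hv3 (1 : F) 0 0)) {g : SU 3 F q} (hg : g • p = p) :
    ∃ l n l' x y z, Tri g l n l' x y z := by
  obtain ⟨l, hl⟩ := h.line hv hg
  exact ⟨l, exists_tri h.h2 hl⟩

theorem A_ut {p : X} (hv : A q p (hv3 (1 : F) 0 0)) (u : UT F q) :
    A q ((utSU h.h2 u)⁻¹ • p) (hv3 (1 : F) 0 0) := by
  have := hv.smul (utSU h.h2 u)⁻¹
  rwa [← map_inv, utSU_smul, mul_zero, mul_zero, mul_zero, add_zero, add_zero, add_zero, map_inv] at this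

theorem not_sr {p : X} (hv : A q p (hv3 (1 : F) 0 0)) {g : SU 3 F q} (hg : g • p = p) {m m' : F}
    (ht : Tri g m 1 m' 0 0 0) (hm : m * m' = 1) : m = 1 := by
  by_contra h1
  have o1 : orderOf (wSU (q := q) h.h2) = 2 := orderOf_eq_two (su_ext fun v => by
    obtain ⟨a, b, c, rfl⟩ := exists_hv3 h.h2 v
    rw [mul_smul, wSU_smul, wSU_smul, one_smul]) fun e => by
      have := wSU_smul (q := q) h.h2 1 0 0
      rw [e, one_smul] at this
      exact one_ne_zero (hv3_inj this).1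
  have o2 : orderOf (g * wSU (q := q) h.h2) = 2 := orderOf_eq_two (su_ext fun v => by
    obtain ⟨a, b, c, rfl⟩ := exists_hv3 h.h2 v
    simp only [mul_smul, wSU_smul, ht _, one_smul]
    congr 1
    · linear_combination a * hm
    · ring
    · linear_combination c * hm) fun e => by
      have : (g * wSU (q := q) h.h2) • hv3 (1 : F) 0 0 = hv3 1 0 0 := by rw [e, one_smul]
      rw [mul_smul, wSU_smul, ht] at this
      simpa using (hv3_inj this).1
  have e : g * wSU h.h2 * wSU h.h2 = g := by rw [mul_assoc, mul_self_of_orderOf o1, mul_one]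
  obtain ⟨a, ha⟩ := h.line hv (h.star o1 o2 (by
    rw [e]
    rintro rfl
    have := ht 1 0 0
    rw [one_smul] at this
    exact h1 (by simpa using (hv3_inj this).1.symm)) (e.symm ▸ hg) hv)
  rw [wSU_smul, smul_hv3] at ha
  simpa using (hv3_inj ha).2.2

include hA

theorem scal_of_hom {x k : SU 3 F q} {l n : F} (hx : ∀ v : Fin 3 → F, x • v = ![n * v 0, l * v 1, l * v 2])
    (hln : l ≠ n) {p : X} (hp : x • p = p) (hk : ∀ r : X, x • r = r → k • r = r) :
    ∃ a : F, k • (ee 1 : Fin 3 → F) = a • ee 1 ∧ k • (ee 2 : Fin 3 → F) = a • ee 2 := by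
  obtain ⟨v, hv⟩ := hA p
  obtain ⟨t, ht⟩ := h.line hv hp
  have hi := hv.iso
  rw [hx] at ht
  have t0 : n * v 0 = t * v 0 := congrFun ht 0
  have t1 : l * v 1 = t * v 1 := congrFun ht 1
  have t2 : l * v 2 = t * v 2 := congrFun ht 2
  have h0 : v 0 = 0 := by
    by_contra h0
    rw [← mul_right_cancel₀ h0 t0] at t1 t2
    have e1 : v 1 = 0 := mul_left_cancel₀ (sub_ne_zero.2 hln) (by linear_combination t1)
    have e2 : v 2 = 0 := mul_left_cancel₀ (sub_ne_zero.2 hln) (by linear_combination t2)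
    simp [herm3, e1, e2, h0] at hi
  have hne : v 1 ≠ 0 ∧ v 2 ≠ 0 := by
    have hz : v 1 = 0 → v 2 = 0 → False := fun e1 e2 => hv.ne (by ext i; fin_cases i <;> simp [*])
    rw [herm3, h0] at hi
    exact ⟨fun e => hz e (by simpa [e, pow_q_eq_zero_iff hF.out] using hi),
      fun e => hz (by simpa [e, pow_q_eq_zero_iff hF.out] using hi) e⟩
  have key : ∀ ζ : F, ζ ^ (q + 1) = 1 → ∃ a : F, v 1 • ζ ^ 2 • k • (ee 1 : Fin 3 → F) +
      v 2 • k • (ee 2 : Fin 3 → F) = a • ![0, v 1 * ζ ^ 2, v 2] := fun ζ hζ => by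
    replace hζ := nrm hζ
    obtain ⟨d, hd⟩ := exists_dg (q := q) (a := 1) (b := ζ) (c := ζ ^ q) (by simpa using hζ) (by simp) hζ
      (by rwa [pow_q_pow_q hF.out, mul_comm])
    have hc : x * d = d * x := su_ext fun v => by
      simp only [mul_smul, hx, hd, cons_val_zero, cons_val_one, cons_val]
      congr 1 <;> [ring; (congr 1 <;> [ring; (congr 1; ring)])]
    obtain ⟨a, ha⟩ := h.line (hv.smul d) (hk _ (by rw [← mul_smul, hc, mul_smul, hp]))
    have e : ζ • d • v = v 1 • ζ ^ 2 • ee 1 + v 2 • ee 2 := by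
      rw [hd]; ext i; fin_cases i <;> simp [ee, h0, ← mul_assoc, hζ]
      ring
    refine ⟨a, ?_⟩
    rw [← smul_comm k, ← smul_comm k, ← smul_comm k, ← smul_add, ← e, smul_comm k, ha, smul_comm, e]
    congr 1
    ext i; fin_cases i <;> simp [ee]
  obtain ⟨a, b, c, hab, hac, hbc, ha, hb, hc⟩ := exists_three_norm_eq hF.out (μ := 1) one_ne_zero (one_pow q)
  have sq : ∀ {a b : F}, a ≠ b → a ^ 2 - b ^ 2 ≠ 0 := fun {a b} hab e => hab (sub_eq_zero.1
    (pow_eq_zero_iff two_ne_zero |>.1 (by linear_combination e + (b ^ 2 - a * b) * h.h2)))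
  obtain ⟨r, hr⟩ := key a ha
  obtain ⟨s, hs⟩ := key b hb
  obtain ⟨t, ht⟩ := key c hc
  generalize k • (ee 1 : Fin 3 → F) = k1 at hr hs ht
  generalize k • (ee 2 : Fin 3 → F) = k2 at hr hs ht
  have r0 := congrFun hr 0; have r1 := congrFun hr 1; have r2 := congrFun hr 2
  have s0 := congrFun hs 0; have s1 := congrFun hs 1; have s2 := congrFun hs 2
  have u1 := congrFun ht 1; have u2 := congrFun ht 2
  simp only [Pi.add_apply, Pi.smul_apply, smul_eq_mul, cons_val_zero, cons_val_one, cons_val,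
    mul_zero] at r0 r1 r2 s0 s1 s2 u1 u2
  have e1 : k1 0 = 0 := mul_left_cancel₀ (mul_ne_zero hne.1 (sq hab)) (by linear_combination r0 - s0)
  have e2 : k2 0 = 0 := mul_left_cancel₀ hne.2 (by rw [e1] at r0; linear_combination r0)
  have f1 : v 2 ^ 2 * k2 1 + v 1 * v 2 * (k1 1 - k2 2) * a ^ 2 - v 1 ^ 2 * k1 2 * (a ^ 2) ^ 2 = 0 := by
    linear_combination v 2 * r1 - v 1 * a ^ 2 * r2
  have f2 : v 2 ^ 2 * k2 1 + v 1 * v 2 * (k1 1 - k2 2) * b ^ 2 - v 1 ^ 2 * k1 2 * (b ^ 2) ^ 2 = 0 := by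
    linear_combination v 2 * s1 - v 1 * b ^ 2 * s2
  have f3 : v 2 ^ 2 * k2 1 + v 1 * v 2 * (k1 1 - k2 2) * c ^ 2 - v 1 ^ 2 * k1 2 * (c ^ 2) ^ 2 = 0 := by
    linear_combination v 2 * u1 - v 1 * c ^ 2 * u2
  have g1 : v 2 * (k1 1 - k2 2) - v 1 * k1 2 * (a ^ 2 + b ^ 2) = 0 :=
    mul_left_cancel₀ (mul_ne_zero hne.1 (sq hab)) (by linear_combination f1 - f2)
  have g2 : v 2 * (k1 1 - k2 2) - v 1 * k1 2 * (a ^ 2 + c ^ 2) = 0 :=
    mul_left_cancel₀ (mul_ne_zero hne.1 (sq hac)) (by linear_combination f1 - f3)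
  have e3 : k1 2 = 0 := mul_left_cancel₀ (mul_ne_zero hne.1 (sq hbc)) (by linear_combination g2 - g1)
  have e4 : k1 1 - k2 2 = 0 := mul_left_cancel₀ hne.2 (by rw [e3] at g1; linear_combination g1)
  have e5 : k2 1 = 0 := mul_left_cancel₀ (pow_ne_zero 2 hne.2) (by
    rw [e3, e4] at f1; linear_combination f1)
  refine ⟨k1 1, ?_, ?_⟩ <;> ext i <;> fin_cases i <;> simp [ee, e1, e2, e3, e5, sub_eq_zero.1 e4]

theorem not_hom {x : SU 3 F q} {l n : F} {u : Fin 3 → F} (hu : ⟪u, u⟫ = 1) (hn : x • u = n • u)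
    (hl : ∀ v, ⟪v, u⟫ = 0 → x • v = l • v) {p : X} (hp : x • p = p) : l = n := by
  by_contra hln
  obtain ⟨g, hg⟩ := ON.exists_su hF.out (u := fun _ : Unit => ee 0) (w := fun _ => u)
    ⟨fun _ => by simp [herm_ee_ee hF.out], fun _ _ h => absurd rfl h⟩
    ⟨fun _ => hu, fun _ _ h => absurd rfl h⟩ (by simp)
  have hx : ∀ v : Fin 3 → F, (g⁻¹ * x * g) • v = ![n * v 0, l * v 1, l * v 2] := fun v => by
    have e : v = v 0 • ee 0 + ![0, v 1, v 2] := by ext i; fin_cases i <;> simp [ee]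
    have e1 := hl (g • ![0, v 1, v 2]) (by rw [← hg (), herm_smul, herm_ee_right hF.out]; rfl)
    rw [mul_smul, mul_smul, inv_smul_eq_iff]
    conv_lhs => rw [e, smul_add, smul_add, e1, smul_comm g, smul_comm x, hg (), hn, ← hg (),
      ← smul_comm g, ← smul_comm g, ← smul_comm g, ← smul_add]
    congr 1
    ext i; fin_cases i <;> simp [ee, mul_comm]
  have hp' := conj_fix (k := g) hp
  generalize g⁻¹ * x * g = x at hx hp'
  generalize g⁻¹ • p = p at hp'
  obtain ⟨σ, hσ⟩ := exists_sig (F := F) (q := q)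
  have hσ' : ∀ v : Fin 3 → F, σ⁻¹ • v = ![v 1, v 2, v 0] := fun v => by
    rw [inv_smul_eq_iff, hσ]; ext i; fin_cases i <;> simp
  have s1 : σ • (ee 0 : Fin 3 → F) = ee 1 := by rw [hσ]; ext i; fin_cases i <;> simp [ee]
  have s2 : σ • (ee 1 : Fin 3 → F) = ee 2 := by rw [hσ]; ext i; fin_cases i <;> simp [ee]
  have s3 : σ • (ee 2 : Fin 3 → F) = ee 0 := by rw [hσ]; ext i; fin_cases i <;> simp [ee]
  have key : ∀ g k : SU 3 F q, (∀ r : X, (g * x * g⁻¹) • r = r → k • r = r) → ∃ a : F,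
      k • g • (ee 1 : Fin 3 → F) = a • g • ee 1 ∧ k • g • (ee 2 : Fin 3 → F) = a • g • ee 2 := by
    intro g k hk
    obtain ⟨a, h1, h2⟩ := h.scal_of_hom hA (k := g⁻¹ * k * g) hx hln hp' fun r hr => by
      rw [mul_smul, mul_smul, hk _ (conj_smul_smul hr), inv_smul_smul]
    rw [mul_smul, mul_smul, inv_smul_eq_iff, smul_comm g] at h1 h2
    exact ⟨a, h1, h2⟩
  obtain ⟨k, k1, k2, k3⟩ := h.hb.test x (σ * x * σ⁻¹)
  obtain ⟨a, a1, a2⟩ := key 1 k (by simpa using k1)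
  obtain ⟨b, b1, b2⟩ := key σ k k2
  rw [one_smul] at a1 a2
  rw [s2, a2] at b1
  rw [s3, ← smul_left_injective F (show (ee 2 : Fin 3 → F) ≠ 0 by simp [ee]) b1] at b2
  have hk := h.hc k (central_of_scalar (a := a) fun v => by
    have : v = v 0 • ee 0 + v 1 • ee 1 + v 2 • ee 2 := by ext i; fin_cases i <;> simp [ee]
    rw [this, smul_add, smul_add, smul_comm k, smul_comm k, smul_comm k, a1, a2, b2]
    simp only [smul_add, smul_comm a])
  have hz := h.hc (σ * x * σ⁻¹ * x * (σ⁻¹ * x * σ)) (central_of_scalar (a := n * l * l) fun v => by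
    simp only [mul_smul, hσ, hσ', hx, cons_val_zero, cons_val_one, cons_val]
    ext i; fin_cases i <;> simp <;> ring)
  obtain ⟨c, c1, c2⟩ := key σ⁻¹ x fun r hr => by
    rw [← k3 r, hk]
    rw [inv_inv] at hr
    simpa only [mul_smul (σ * x * σ⁻¹ * x), hr] using hz r
  simp only [hσ', hx] at c1 c2
  exact hln ((by simpa [ee] using congrFun c2 1 : l = c).trans
    (by simpa [ee] using congrFun c1 0 : n = c).symm)

theorem eq_of_tri {p : X} (hv : A q p (hv3 (1 : F) 0 0)) {g : SU 3 F q} (hg : g • p = p)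
    {l n l' x y z : F} (ht : Tri g l n l' x y z) : n = l ∧ l' = l := by
  obtain ⟨r1, r2, -, -⟩ := ht.rel h.h2
  suffices n = l by
    subst this
    exact ⟨rfl, pow_q_injective hF.out (mul_left_cancel₀ (left_ne_zero_of_mul_eq_one r1)
      (r1.trans r2.symm))⟩
  by_contra hn
  replace hn : n - l ≠ 0 := sub_ne_zero.2 hn
  obtain ⟨u, hu⟩ := UT.exists_X (q := q) (x / (n - l))
  have hv1 := h.A_ut hv u
  have hg1 := conj_fix (k := utSU h.h2 u) hg
  have e1 : ((utSU h.h2 u)⁻¹ * g * utSU h.h2 u) • hv3 (1 : F) 0 0 = l • hv3 1 0 0 := by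
    rw [mul_smul, mul_smul, inv_smul_eq_iff, smul_hv3, utSU_smul, utSU_smul, ht]
    simp
  have e2 : ((utSU h.h2 u)⁻¹ * g * utSU h.h2 u) • hv3 (0 : F) 1 0 = hv3 0 n 0 := by
    rw [mul_smul, mul_smul, inv_smul_eq_iff, utSU_smul, utSU_smul, ht, hu]
    congr 1
    · field_simp; ring
    · ring
    · ring
  generalize (utSU h.h2 u)⁻¹ * g * utSU h.h2 u = g at e1 e2 hg1
  generalize (utSU h.h2 u)⁻¹ • p = p at hv1 hg1
  clear ht r1 hu
  obtain ⟨n', l', x, y, z, ht⟩ := exists_tri h.h2 e1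
  rw [ht] at e2
  obtain ⟨e3, e4, -⟩ := hv3_inj e2
  simp only [mul_zero, mul_one, zero_add, add_zero] at e3 e4
  subst e3 e4
  obtain ⟨r1, -, r3, r4⟩ := ht.rel h.h2
  have hz : z = 0 := by simpa [left_ne_zero_of_mul_eq_one r2, pow_q_eq_zero_iff hF.out] using r3
  subst hz
  by_cases hl : l' = l
  · subst hl
    have := h.not_hom hA (x := g * g) (u := hv3 0 1 0) (l := l' ^ 2) (n := n' ^ 2)
      (by simp [herm_hv3 h.h2]) (by rw [mul_smul, ht, ht, smul_hv3]; congr 1 <;> ring) (fun v hv => by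
        obtain ⟨a, b, c, rfl⟩ := exists_hv3 h.h2 v
        have : b = 0 := by simpa [herm_hv3 h.h2, zero_pow_q hF.out] using hv
        rw [mul_smul, ht, ht, smul_hv3, this]
        congr 1
        · linear_combination l' * y * c * h.h2
        · ring
        · ring) (p := p) (by rw [mul_smul, hg1, hg1])
    exact hn (pow_eq_zero_iff two_ne_zero |>.1 (by linear_combination -this + (l' ^ 2 - n' * l') * h.h2))
  replace hl : l' - l ≠ 0 := sub_ne_zero.2 hl
  have r1' : l ^ q * l' = 1 := by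
    simpa [mul_pow, pow_q_pow_q hF.out] using congrArg (· ^ q) r1
  have hl' := pow_ne_zero q hl
  let u : UT F q := ⟨0, y / (l' - l), by
    rw [div_pow, zero_mul]
    field_simp
    rw [sub_pow_q hF.out]
    refine mul_left_cancel₀ (right_ne_zero_of_mul_eq_one r1') ?_
    linear_combination (l' - l) * r4 + y * r1 - y * r1'⟩
  have ht' : Tri ((utSU h.h2 u)⁻¹ * g * utSU h.h2 u) l n' l' 0 0 0 := fun a b c => by
    rw [mul_smul, mul_smul, inv_smul_eq_iff, utSU_smul, utSU_smul, ht]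
    simp only [u, zero_pow_q hF.out]
    congr 1
    · field_simp; ring
    · ring
  have := ht'.pow (q + 1)
  rw [pow_succ' n', r2] at this
  have e5 := h.not_sr (h.A_ut hv1 u) (pow_smul_of_fix (conj_fix hg1) _) this (by
    rw [pow_succ, pow_succ]; linear_combination l' ^ q * l * r1' + r1)
  refine hl (sub_eq_zero.2 (pow_q_injective hF.out (mul_left_cancel₀ (left_ne_zero_of_mul_eq_one r1) ?_)))
  rw [r1, ← pow_succ', e5]

theorem central_of_fix {p : X} {v w : Fin 3 → F} (hv : A q p v) {g : SU 3 F q} (hg : g • p = p)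
    (hw : ⟪w, w⟫ = 0) (hvw : ⟪v, w⟫ ≠ 0) {a : F} (ha : g • w = a • w) :
    g ∈ Subgroup.center (SU 3 F q) := by
  obtain ⟨k, k1, k2⟩ := witt2' h.h2 hv.iso hw hvw
  have h1 := k1 ▸ hv.smul k
  have h3 := conj_smul_smul (g := k) hg
  obtain ⟨l, n, l', x, y, z, ht⟩ := h.tri h1 h3
  obtain ⟨rfl, rfl⟩ := h.eq_of_tri hA h1 h3 ht
  have h4 : (k * g * k⁻¹) • k • w = a • k • w := by
    rw [mul_smul, mul_smul, inv_smul_smul, ha, smul_comm]
  rw [k2, ht, smul_hv3] at h4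
  have h5 : ⟪w, v⟫ ≠ 0 := mt (herm_eq_zero_comm hF.out).1 hvw
  obtain ⟨e1, e2, -⟩ := hv3_inj h4
  obtain ⟨r1, -, r3, -⟩ := ht.rel h.h2
  have hy : y = 0 := by simpa [h5] using e1
  have hz : z = 0 := by simpa [h5] using e2
  have hx : x = 0 := by simpa [hz, zero_pow_q hF.out, left_ne_zero_of_mul_eq_one r1] using r3
  have h6 := central_of_scalar (g := k * g * k⁻¹) (a := l') fun v => by
    obtain ⟨a, b, c, rfl⟩ := exists_hv3 h.h2 v
    rw [ht, smul_hv3, hx, hy, hz]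
    simp
  simpa [mul_assoc] using Subgroup.Normal.conj_mem inferInstance _ h6 k⁻¹

theorem not_four {p : X} (hv : A q p (hv3 (1 : F) 0 0)) {u : UT F q} (hg : utSU h.h2 u • p = p) :
    u.X = 0 := by
  by_contra hX
  have hX' := pow_ne_zero q hX
  have hY : u.Y ≠ 0 := fun e => hX (by rw [UT.eq_one_of_Y e]; rfl)
  have hY' := pow_ne_zero q hY
  obtain ⟨m, hm, hm3⟩ := exists_cube_ne h.h2 h.hq
  obtain ⟨t, ht⟩ : ∃ t, t = (m ^ 3 + (m ^ q) ^ 3) * (u.X * u.X ^ q) / (u.Y * u.Y ^ q) := ⟨_, rfl⟩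
  have ht0 : t ≠ 0 := ht ▸ div_ne_zero (mul_ne_zero hm3 (mul_ne_zero hX hX')) (mul_ne_zero hY hY')
  have htq : t ^ q = t := by
    rw [ht, div_pow, mul_pow, mul_pow, mul_pow, add_pow_q hF.out, pow_right_comm m 3,
      pow_right_comm _ 3, pow_q_pow_q hF.out, pow_q_pow_q hF.out, pow_q_pow_q hF.out]
    ring
  obtain ⟨w, hw⟩ := exists_anti (q := q) h.h2 (m := t * m) (n := (m ^ q) ^ 2) (m' := m / t)
    (by field_simp; linear_combination (m * m ^ q + 1) * hm)
    (by rw [div_pow, htq]; field_simp; exact hm)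
    (by rw [pow_right_comm _ 2, pow_q_pow_q hF.out]; linear_combination (m * m ^ q + 1) * hm)
  let u' : UT F q := ⟨(u.Y / u.X) ^ q, (m ^ q) ^ 3 / t, by
    rw [pow_q_pow_q hF.out, div_pow, div_pow, htq, pow_right_comm _ 3, pow_q_pow_q hF.out, ht]
    field_simp
    ring⟩
  have hc : ∀ a b c : F, (utSU h.h2 u' * w) • hv3 a b c = hv3 (m / t * c + (u.Y / u.X) ^ q *
      ((m ^ q) ^ 2 * b) + (m ^ q) ^ 3 / t * (t * m * a)) ((m ^ q) ^ 2 * b + u.Y / u.X * (t * m * a))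
      (t * m * a) := fun a b c => by
    rw [mul_smul, hw, utSU_smul, pow_q_pow_q hF.out]
  generalize utSU h.h2 u' * w = c at hc
  have c1 : c ^ 3 = 1 := cube_of_trace (by
    simp only [trace_eq h.h2, hc, herm_hv3 h.h2, zero_pow_q hF.out, one_pow]
    field_simp
    linear_combination u.X * t * (m ^ q) ^ 2 * hm + u.X * t * (m ^ q) ^ 2 * h.h2)
  have c2 : (utSU h.h2 u * c) ^ 3 = 1 := cube_of_trace (by
    simp only [trace_eq h.h2, mul_smul, hc, utSU_smul, herm_hv3 h.h2, zero_pow_q hF.out, one_pow]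
    field_simp
    linear_combination u.X * t * (m ^ q) ^ 2 * hm + (u.X * t * (m ^ q) ^ 2 + u.X * t ^ 2 * m * u.Y) * h.h2)
  have tm : t * m ≠ 0 := mul_ne_zero ht0 (left_ne_zero_of_mul_eq_one hm)
  have n1 : ⟪hv3 (1 : F) 0 0, c • hv3 (1 : F) 0 0⟫ ≠ 0 := by
    simpa [hc, herm_hv3 h.h2] using fun e => absurd e (mul_ne_zero_iff.1 tm |> fun x => by simp [x.1, x.2])
  have e1 : c⁻¹ = c * c := by rw [inv_eq_iff_mul_eq_one, ← c1, pow_three]
  have e2 : utSU h.h2 u * (c * utSU h.h2 u * c⁻¹) * (c⁻¹ * utSU h.h2 u * c) = 1 := by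
    rw [← c2, pow_three]
    conv_lhs => rw [mul_assoc, mul_assoc (c * _), ← mul_assoc c⁻¹, ← mul_assoc c⁻¹, ← _root_.mul_inv_rev,
      ← e1, inv_inv]
    simp only [mul_assoc]
  generalize hx : utSU h.h2 u = x at hg e2
  obtain ⟨k, k1, k2, k3⟩ := h.hb.test (c * x * c⁻¹) x
  obtain ⟨a, ha⟩ := h.line (hv.smul c) (k1 _ (conj_smul_smul hg))
  have h1 := h.hc k (h.central_of_fix hA hv (k2 p hg) (hv.smul c).iso n1 ha)
  have h3 := k3 (c⁻¹ • p) (by
    rw [eq_inv_of_mul_eq_one_left e2, inv_smul_eq_iff, conj_fix hg])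
  rw [h1] at h3
  obtain ⟨b, hb⟩ := h.line (hv.smul c⁻¹) h3.symm
  have h4 := h.central_of_fix hA (hv.smul c) (conj_smul_smul hg) (hv.smul c⁻¹).iso (by
    rwa [e1, mul_smul, herm_smul]) hb
  obtain ⟨d, hd⟩ := scalar_of_central (show x ∈ Subgroup.center _ by
    simpa [mul_assoc] using Subgroup.Normal.conj_mem inferInstance _ h4 c⁻¹)
  have := hd (hv3 0 1 0)
  rw [← hx, utSU_smul, smul_hv3] at this
  exact hX (by simpa using (hv3_inj this).1)

theorem sq_central {p : X} {g : SU 3 F q} (hg : g • p = p) : g * g ∈ Subgroup.center (SU 3 F q) := by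
  obtain ⟨v, hv⟩ := hA p
  obtain ⟨k, hk⟩ := witt1 h.h2 hv.ne hv.iso
  have h1 := hk ▸ hv.smul k
  have h3 := conj_smul_smul (g := k) hg
  suffices (k * g * k⁻¹) * (k * g * k⁻¹) ∈ Subgroup.center (SU 3 F q) by
    simpa [mul_assoc] using Subgroup.Normal.conj_mem inferInstance _ this k⁻¹
  generalize k * g * k⁻¹ = g at h3
  obtain ⟨l, n, l', x, y, z, ht⟩ := h.tri h1 h3
  obtain ⟨rfl, rfl⟩ := h.eq_of_tri hA h1 h3 ht
  obtain ⟨r1, -, r3, r4⟩ := ht.rel h.h2
  have l0 := left_ne_zero_of_mul_eq_one r1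
  have l1 := pow_ne_zero q l0
  have hz : z = (x / l') ^ q * l' := by
    refine pow_q_injective hF.out ?_
    rw [mul_pow, pow_q_pow_q hF.out]
    field_simp
    linear_combination r3 - x * l' ^ q * h.h2
  let u : UT F q := ⟨x / l', y / l', by
    rw [hz, mul_pow, pow_q_pow_q hF.out] at r4
    rw [div_pow y]
    field_simp at r4 ⊢
    linear_combination r4 - l' ^ q * x * (x / l') ^ q * h.h2⟩
  have h4 := h.hc (g * (utSU h.h2 u)⁻¹) (central_of_scalar (a := l') fun v => by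
    obtain ⟨v, rfl⟩ := (MulAction.toPerm (utSU h.h2 u)).surjective v
    obtain ⟨a, b, c, rfl⟩ := exists_hv3 h.h2 v
    rw [toPerm_apply, mul_smul, inv_smul_smul, utSU_smul, ht, smul_hv3, hz]
    simp only [u]
    congr 1 <;> field_simp) (utSU h.h2 u • k • p)
  rw [mul_smul, inv_smul_smul, h3] at h4
  have hx : x = 0 := by simpa [u, l0] using h.not_four hA h1 h4.symm
  rw [hx, zero_div, zero_pow_q hF.out, zero_mul] at hz
  refine central_of_scalar (a := l' ^ 2) fun v => ?_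
  obtain ⟨a, b, c, rfl⟩ := exists_hv3 h.h2 v
  rw [mul_smul, ht, ht, smul_hv3, hx, hz]
  congr 1
  · linear_combination l' * y * c * h.h2
  · ring
  · ring

end Hyp

end CfsgLib.Perm.BinU
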