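/-
Simple groups with abelian centralizers.
-/
import Cfsg.Agent.Lib.Perm.SpecPSL2A
import Cfsg.Agent.Lib.Perm.ZassFeitUse
import Cfsg.Agent.Lib.StrEmb.Basic

set_option autoImplicit false
set_option linter.unusedSectionVars false

namespace CfsgLib.Perm.CAG

open Cfsg CfsgLib.BG CfsgLib.PF CfsgLib.Invol CfsgLib.BSW CfsgLib.Perm.SpecPSL Subgroup MulAction
open CfsgLib.StrEmb (UniqueFix smul_one_eq_iff smul_mk_eq_iff)
open scoped MatrixGroups

variable {G : Type*} [Group G] [Finite G]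

/-- Commuting is transitive on the non-identity elements. -/
def CT (G : Type*) [Group G] : Prop :=
  ∀ a b c : G, a ≠ 1 → b ≠ 1 → c ≠ 1 → Commute a b → Commute b c → Commute a c

namespace CT

variable (h : CT G)
include h

theorem comm {y a c : G} (hy : y ≠ 1) (ha : a ∈ 𝒞[y]) (hc : c ∈ 𝒞[y]) : a * c = c * a := by
  by_cases h1 : a = 1
  · simp [h1]
  by_cases h2 : c = 1
  · simp [h2]
  exact h a y c h1 hy h2 (mem_cent1.1 ha) (mem_cent1.1 hc).symm

theorem selfCent {y : G} (hy : y ≠ 1) : SelfCent 𝒞[y] := fun z hz h1 => by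
  ext x
  exact ⟨fun hx => mem_cent1.2 (h.comm h1 hx (cent1C.1 hz)), fun hx => mem_cent1.2 (h.comm hy hx hz)⟩

variable {t : G} (ht : orderOf t = 2)
include ht

theorem mem_of_invol {s : G} (hs : orderOf s = 2) (hn : s ∈ 𝒩(𝒞[t])) : s ∈ 𝒞[t] := by
  by_contra h1
  have h2 := inverts_of_fpf (mul_self_of_orderOf_two hs) hn (fun y hy e => by
    by_contra h3
    exact h1 (h.selfCent (ne_one_of_orderOf_two ht) y hy h3 ▸
      mem_cent1.2 (mul_inv_eq_iff_eq_mul.1 e))) (cent1id t)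
  rw [inv_of_orderOf_two ht] at h2
  exact h1 (mem_cent1.2 (mul_inv_eq_iff_eq_mul.1 h2))

theorem se (hN : 𝒩(𝒞[t]) ≠ ⊤) : IsStronglyEmbedded 𝒩(𝒞[t]) :=
  StrEmb.isStronglyEmbedded_of hN ⟨t, normG _ (cent1id t), ht⟩ fun s hs hs2 g hg => by
    have h1 := h.mem_of_invol ht (s := g⁻¹ * s * g⁻¹⁻¹) (by rw [BG.orderOf_conj, hs2])
      (by simpa using hg)
    exact inv_mem_iff.1 ((h.selfCent (ne_one_of_orderOf_two ht)).mem_norm (h.mem_of_invol ht hs2 hs)
      (ne_one_of_orderOf_two hs2) h1)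

variable (hN : 𝒩(𝒞[t]) ≠ ⊤)
include hN

local notation "Ω" => G ⧸ 𝒩(𝒞[t])
local notation "o" => (QuotientGroup.mk 1 : G ⧸ 𝒩(𝒞[t]))

theorem uf : UniqueFix G Ω := StrEmb.uniqueFix_of_isStronglyEmbedded (h.se ht hN)

theorem swap {y : Ω} (hy : y ≠ o) : ∃ u : G, orderOf u = 2 ∧ u • o = y := by
  obtain ⟨g, rfl⟩ := exists_smul_eq G o y
  have h1 : t • o = o := smul_one_eq_iff.2 (normG _ (cent1id t))
  obtain ⟨w, hw, -, e, -⟩ := (h.uf ht hN).exists_swap ht (u := g * t * g⁻¹)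
    (by rw [BG.orderOf_conj, ht]) hy.symm h1 (StrEmb.conj_smul_smul h1)
  exact ⟨w, hw, e⟩

theorem free {d : G} (hd : d ∈ 𝒞[t]) {y : Ω} (hy : y ≠ o) (e : d • y = y) : d = 1 := by
  obtain ⟨u, hu, rfl⟩ := h.swap ht hN hy
  by_contra h1
  have hS := h.selfCent (ne_one_of_orderOf_two ht)
  have hu' : u ∉ 𝒩(𝒞[t]) := fun e => hy (smul_one_eq_iff.2 e)
  have hi := inv_of_orderOf_two hu
  have h2 : u * d * u⁻¹ ∈ 𝒩(𝒞[t]) := smul_one_eq_iff.1 (by
    rw [hi, mul_smul, mul_smul, e, StrEmb.smul_smul_of_mul_self (mul_self_of_orderOf_two hu)])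
  have h3 : d * (u * d * u⁻¹ * d⁻¹ * (u * d * u⁻¹)⁻¹) ∈ 𝒞[t] :=
    mul_mem hd (conj_mem_of_mem_norm h2 (inv_mem hd))
  have h4 : u * d * u⁻¹ * d * (u * d * u⁻¹)⁻¹ * d⁻¹ ∈ 𝒞[t] :=
    mul_mem (conj_mem_of_mem_norm h2 hd) (inv_mem hd)
  have h5 : d * (u * d * u⁻¹ * d⁻¹ * (u * d * u⁻¹)⁻¹) = 1 := by
    by_contra h5
    refine hu' (hS.mem_norm h3 h5 ?_)
    convert h4 using 1
    rw [hi]
    simp only [mul_inv_rev, hi, mul_assoc]
    rw [mul_self_of_orderOf_two hu, mul_one]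
  have h6 : u * d * u⁻¹ ∈ 𝒞[d] := mem_cent1.2 (by
    rw [← mul_assoc, mul_inv_eq_one, ← mul_assoc, mul_inv_eq_iff_eq_mul] at h5
    exact h5.symm)
  exact hu' (hS.mem_norm hd h1 (hS d hd h1 ▸ h6))

theorem inverts {u d : G} (hu : orderOf u = 2) (hy : u • o ≠ o) (h1 : d • o = o)
    (h2 : d • u • o = u • o) : u * d * u⁻¹ = d⁻¹ := by
  have h3 : t • o = o := smul_one_eq_iff.2 (normG _ (cent1id t))
  obtain ⟨k, k1, k2, k3, k4⟩ := (h.uf ht hN).exists_conj_fix_two ht (t := d * t * d⁻¹)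
    (by rw [BG.orderOf_conj, ht]) hu h3 (by
      rw [mul_smul, mul_smul, inv_smul_eq_iff.2 h1.symm, h3, h1]) hy
  have h4 := h.free ht hN (d := k⁻¹ * d) (mem_cent1.2 (by
    calc k⁻¹ * d * t = k⁻¹ * (d * t * d⁻¹) * d := by group
      _ = _ := by rw [← k4]; group)) hy (by rw [mul_smul, h2, inv_smul_eq_iff, k2])
  rwa [← inv_mul_eq_one.1 h4]

theorem fix_two {d : G} (hd : d ≠ 1) {y z : Ω} (hy : y ≠ o) (hz : z ≠ o) (h1 : d • o = o)
    (h2 : d • y = y) (h3 : d • z = z) : y = z := by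
  by_contra hyz
  obtain ⟨u, hu, rfl⟩ := h.swap ht hN hy
  have uu := mul_self_of_orderOf_two hu
  have hi := inv_of_orderOf_two hu
  have hud := h.inverts ht hN hu hy h1 h2
  have key : ∀ z : Ω, z ≠ o → d • z = z → ∃ b ∈ 𝒞[d], u * b * u = b⁻¹ ∧ b • u • o = z := by
    intro z hz h3
    obtain ⟨w, hw, rfl⟩ := h.swap ht hN hz
    have hwd := h.inverts ht hN hw hz h1 h3
    refine ⟨w * u, mem_cent1.2 ?_, by rw [mul_inv_rev, hi, inv_of_orderOf_two hw, mul_assoc, mul_assoc, uu,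
      mul_one], by rw [mul_smul, StrEmb.smul_smul_of_mul_self uu]⟩
    have e : w * d⁻¹ * w⁻¹ = d := by rw [← conj_inv, hwd, inv_inv]
    calc w * u * d = w * (u * d * u⁻¹) * u := by group
      _ = w * d⁻¹ * w⁻¹ * (w * u) := by rw [hud]; group
      _ = _ := by rw [e]
  obtain ⟨b, hb, e1, rfl⟩ := key z hz h3
  obtain ⟨c, hc, e2, e3⟩ := key (u • b • u • o) (fun e => hyz (by
    have := congrArg (u • ·) e
    simp only [StrEmb.smul_smul_of_mul_self uu] at this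
    exact this.symm)) (by
    have : d * u = u * d⁻¹ := by rw [← hud, ← mul_assoc, ← mul_assoc, uu, one_mul, hi]
    rw [← mul_smul, this, mul_smul, inv_smul_eq_iff.2 h3.symm])
  have h4 : (c * b * u) • o = o := by
    rw [mul_smul, mul_smul, ← StrEmb.smul_smul_of_mul_self uu (b • u • o), ← e3, ← mul_smul u,
      ← mul_smul (u * c), e2, smul_inv_smul]
  have h5 : c * b * u * d * (c * b * u)⁻¹ = d⁻¹ := by
    calc c * b * u * d * (c * b * u)⁻¹ = c * b * (u * d * u⁻¹) * (c * b)⁻¹ := by group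
      _ = _ := by
        rw [hud, mem_cent1.1 (show c * b ∈ 𝒞[d⁻¹] by rw [cent1_inv]; exact mul_mem hc hb)]; group
  have hodd := (h.uf ht hN).odd_orderOf_of_fix_two hy.symm h1 h2
  have h6 : orderOf (c * b * u) = 2 := by
    refine StrEmb.orderOf_eq_two ?_ fun e => ?_
    · calc c * b * u * (c * b * u) = c * b * (u * c * u) * (u * b * u) := by
            simp only [mul_assoc]; rw [← mul_assoc u u, uu, one_mul]
        _ = 1 := by rw [e1, e2, h.comm hd hc hb]; group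
    · rw [e, one_mul, inv_one, mul_one] at h5
      exact hd (eq_one_of_odd hodd (by nth_rewrite 1 [h5]; simp))
  have h7 := h.mem_of_invol ht h6 (smul_one_eq_iff.1 h4)
  have h8 := mul_mem (conj_mem_of_mem_norm (smul_one_eq_iff.1 h1) (inv_mem h7)) h7
  have h9 : d * (c * b * u)⁻¹ * d⁻¹ * (c * b * u) = d * d := by
    rw [← h5]
    have := inv_of_orderOf_two h6
    generalize c * b * u = v at this h6
    rw [this]
    simp only [mul_assoc]
    rw [mul_self_of_orderOf_two h6, mul_one, ← mul_assoc v v, mul_self_of_orderOf_two h6, one_mul]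
  rw [h9] at h8
  exact hd (eq_one_of_odd hodd (h.free ht hN h8 hy (by rw [mul_smul, h2, h2])))

variable {s : G} (hs : orderOf s = 2) (hst : s ∈ 𝒞[t]) (hne : s ≠ t)
include hs hst hne

theorem exists_fix {y : Ω} (hy : y ≠ o) : ∃ d : G, d • o = o ∧ d • y = y ∧ d * s * d⁻¹ = t := by
  obtain ⟨u, hu, rfl⟩ := h.swap ht hN hy
  obtain ⟨k, k1, k2, -, k4⟩ := (h.uf ht hN).exists_conj_fix_two hs ht hu
    (smul_one_eq_iff.2 (normG _ hst)) (smul_one_eq_iff.2 (normG _ (cent1id t))) hy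
  exact ⟨k, k1, k2, k4⟩

theorem root : IsRootGrp o 𝒞[t] := by
  have hS := h.selfCent (ne_one_of_orderOf_two ht)
  refine ⟨fun u hu => smul_one_eq_iff.2 (normG _ hu),
    fun g hg u hu => conj_mem_of_mem_norm (smul_one_eq_iff.1 hg) hu, fun y z hy hz => ?_,
    fun u hu y hy e => h.free ht hN hu hy e⟩
  obtain ⟨d, d1, d2, d3⟩ := h.exists_fix ht hN hs hst hne hy
  obtain ⟨k, k1, k2, k3⟩ := h.exists_fix ht hN hs hst hne hz
  have hd : d ≠ 1 := by rintro rfl; exact hne (by simpa using d3)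
  have hk : k ∉ 𝒞[t] := fun e => hne (by simpa [h.free ht hN e hz k2] using k3)
  have ha : k⁻¹ * d ∈ 𝒞[t] := hS s hst (ne_one_of_orderOf_two hs) ▸ mem_cent1.2 (by
    calc k⁻¹ * d * s = k⁻¹ * (d * s * d⁻¹) * d := by group
      _ = _ := by rw [d3, ← k3]; group)
  let f : 𝒞[t] → 𝒞[t] := fun c => ⟨k⁻¹ * (c : G)⁻¹ * k * c, mul_mem (conj_mem_of_mem_norm'
    (smul_one_eq_iff.1 k1) (inv_mem c.2)) c.2⟩
  have hf : Function.Injective f := fun a b e => by
    have e1 : k⁻¹ * (a : G)⁻¹ * k * a = k⁻¹ * (b : G)⁻¹ * k * b := congrArg Subtype.val e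
    by_contra h1
    refine hk (hS (a * b⁻¹) (mul_mem a.2 (inv_mem b.2)) (fun e => h1 (Subtype.ext
      (mul_inv_eq_one.1 e))) ▸ mem_cent1.2 ?_)
    calc k * (a * (b : G)⁻¹) = a * k * (k⁻¹ * (a : G)⁻¹ * k * a) * (b : G)⁻¹ := by group
      _ = a * (b : G)⁻¹ * k := by rw [e1]; group
  obtain ⟨c, hc⟩ := Finite.injective_iff_surjective.1 hf ⟨_, ha⟩
  have e1 : k⁻¹ * (c : G)⁻¹ * k * c = k⁻¹ * d := congrArg Subtype.val hc
  have e2 : d = (c : G)⁻¹ * k * c := by rw [← mul_right_inj k⁻¹, ← e1]; group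
  have hc1 : (c : G)⁻¹ • o = o := smul_one_eq_iff.2 (normG _ (inv_mem c.2))
  refine ⟨c, c.2, ?_⟩
  rw [h.fix_two ht hN hd hy (smul_ne_of_fix hc1 hz) d1 d2 (by
    rw [e2, mul_smul, mul_smul, smul_inv_smul, k2]), smul_inv_smul]

end CT

theorem CT.iso [IsSimpleGroup G] (h : CT G) {s t : G} (hs : orderOf s = 2) (ht : orderOf t = 2)
    (hst : s ∈ 𝒞[t]) (hne : s ≠ t) (hG : ¬ IsMulCommutative G) :
    ∃ (K : Type) (_ : Field K) (_ : Fintype K), Even (Fintype.card K) ∧ 2 < Fintype.card K ∧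
      Nonempty (G ≃* PGL(2, K)) := by
  have hS := h.selfCent (ne_one_of_orderOf_two ht)
  have hN : 𝒩(𝒞[t]) ≠ ⊤ := fun e => by
    rcases (normalizer_eq_top_iff.1 e).eq_bot_or_eq_top with e | e
    · exact ne_one_of_orderOf_two ht (mem_bot.1 (e ▸ cent1id t))
    · exact hG ⟨⟨fun a b => h.comm (ne_one_of_orderOf_two ht) (e ▸ mem_top a) (e ▸ mem_top b)⟩⟩
  have hR := h.root ht hN hs hst hne
  have := StrEmb.nontrivial_quotient hN
  obtain ⟨y, hy⟩ := exists_ne (QuotientGroup.mk 1 : G ⧸ 𝒩(𝒞[t]))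
  have e1 := hR.card hy.symm
  have e0 : 0 < Nat.card (G ⧸ 𝒩(𝒞[t])) := Nat.card_pos
  have e2 : 2 ∣ Nat.card 𝒞[t] := ht ▸ order_dvdG (cent1id t)
  have e3 : 2 < Nat.card 𝒞[t] := by
    have := Fintype.ofFinite 𝒞[t]
    rw [Nat.card_eq_fintype_card, Fintype.two_lt_card_iff]
    exact ⟨1, ⟨s, hst⟩, ⟨t, cent1id t⟩, fun e => ne_one_of_orderOf_two hs (congrArg Subtype.val e).symm,
      fun e => ne_one_of_orderOf_two ht (congrArg Subtype.val e).symm,
      fun e => hne (congrArg Subtype.val e)⟩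
  have hZ := hS.isZT (by rw [index_eq_card]; omega) (Nat.Coprime.coprime_dvd_right
    (relIndex_dvd_of_selfCent hS) ((Nat.coprime_self_sub_right (by omega)).2 (by simp)))
  obtain ⟨d, d1, d2, d3⟩ := h.exists_fix ht hN hs hst hne hy
  have hd : d ≠ 1 := by rintro rfl; exact hne (by simpa using d3)
  have hZ' : IsZassenhausGroup G (G ⧸ 𝒩(𝒞[t])) := by
    refine ⟨hZ.faithful (by omega), hZ.isMultiplyPretransitive,
      fun g a b c hab hbc hac => hZ.sharp hab hac hbc, ⟨d, hd, _, _, hy, d2, d1⟩, fun N hn hT => ?_⟩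
    rcases hn.eq_bot_or_eq_top with rfl | rfl
    · obtain ⟨⟨g, hg⟩, e⟩ := hT.exists_smul_eq y (QuotientGroup.mk 1)
      rw [mem_bot] at hg
      subst hg
      exact absurd (by simpa using e) hy
    · refine ⟨y, fun e => hd ?_⟩
      exact congrArg Subtype.val (mem_bot.1 (e.le (x := ⟨d, mem_top d⟩) d2))
  have e4 := zass_le_of_comm hZ' hy.symm hR fun u hu v hv => h.comm (ne_one_of_orderOf_two ht) hu hv
  have e5 := hZ.card_eq_or_two_mul_le (by omega) hy.symm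
  obtain ⟨K, _, _, hK, φ, -⟩ := hZ.pgl_of_odd (hZ.three_trans_of_card hy.symm (by omega)) (by omega)
    (by rw [Nat.odd_iff]; omega)
  exact ⟨K, _, _, by rw [Nat.even_iff]; omega, by omega, ⟨φ⟩⟩

end CfsgLib.Perm.CAG
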