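import Mathlib

/-! The number of orbits of a two-point stabiliser in a doubly transitive group. -/

set_option autoImplicit false

namespace CfsgLib.Perm.Derange

open MulAction Finset

variable {G Ω : Type*} [Group G] [MulAction G Ω]

/-- two-point stabiliser -/
def St (G : Type*) [Group G] [MulAction G Ω] (a b : Ω) : Subgroup G := stabilizer G a ⊓ stabilizer G b

/-- three-point stabiliser -/
def St3 (G : Type*) [Group G] [MulAction G Ω] (a b c : Ω) : Subgroup G := St G a b ⊓ stabilizer G c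

theorem mem_St {a b : Ω} {g : G} : g ∈ St G a b ↔ g • a = a ∧ g • b = b := Iff.rfl

theorem mem_St3 {a b c : Ω} {g : G} : g ∈ St3 G a b c ↔ g • a = a ∧ g • b = b ∧ g • c = c := and_assoc

theorem St_comm (a b : Ω) : St G a b = St G b a := inf_comm _ _

theorem St3_swap (a b c : Ω) : St3 G a b c = St3 G a c b := by
  ext g; simp only [mem_St3]; tauto

theorem St3_comm (a b c : Ω) : St3 G a b c = St3 G b a c := by
  ext g; simp only [mem_St3]; tauto

theorem St3_le (a b c : Ω) : St3 G a b c ≤ St G a b := inf_le_left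

open Classical in
/-- the fixed points of a subgroup -/
noncomputable def Fx {G : Type*} [Group G] (Ω : Type*) [Fintype Ω] [MulAction G Ω] (U : Subgroup G) :
    Finset Ω :=
  univ.filter fun x => ∀ g ∈ U, g • x = x

theorem card_St3_smul (g : G) (a b c : Ω) :
    Nat.card (St3 G (g • a) (g • b) (g • c)) = Nat.card (St3 G a b c) := by
  symm
  refine Nat.card_congr
    { toFun := fun x => ⟨g * x * g⁻¹, ?_⟩
      invFun := fun x => ⟨g⁻¹ * x * g, ?_⟩
      left_inv := fun x => Subtype.ext (by simp [mul_assoc])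
      right_inv := fun x => Subtype.ext (by simp [mul_assoc]) }
  · obtain ⟨h1, h2, h3⟩ := mem_St3.1 x.2
    simp [mem_St3, mul_smul, h1, h2, h3]
  · obtain ⟨h1, h2, h3⟩ := mem_St3.1 x.2
    simp [mem_St3, mul_smul, h1, h2, h3]

theorem St3_self (a b : Ω) : St3 G a b b = St G a b := by
  ext g; simp only [mem_St3, mem_St]; tauto

/-- two subgroups of index two -/
theorem mul_mem_of_index_two [Finite G] {H U : Subgroup G} (hU : U ≤ H)
    (hc : 2 * Nat.card U = Nat.card H) {x y : G} (hx : x ∈ H) (hy : y ∈ H) (hx' : x ∉ U) (hy' : y ∉ U) :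
    x * y ∈ U := by
  have h1 : (U.subgroupOf H).index = 2 := by
    have := (U.subgroupOf H).card_mul_index
    rw [Nat.card_congr (Subgroup.subgroupOfEquivOfLe hU).toEquiv, ← hc, mul_comm 2] at this
    exact Nat.eq_of_mul_eq_mul_left Nat.card_pos this
  exact (Subgroup.mul_mem_iff_of_index_two h1 (a := ⟨x, hx⟩) (b := ⟨y, hy⟩)).2 (iff_of_false hx' hy')

theorem card_inf_of_index_two [Finite G] {H U V : Subgroup G} (hU : U ≤ H) (hV : V ≤ H)
    (hc : 2 * Nat.card U = Nat.card H) {v : G} (hv : v ∈ V) (hv' : v ∉ U) :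
    2 * Nat.card ↥(U ⊓ V) = Nat.card V := by
  have h1 : ((U ⊓ V).subgroupOf V).index = 2 := by
    rw [Subgroup.index_eq_two_iff]
    refine ⟨⟨v, hv⟩, fun b => ?_⟩
    simp only [Subgroup.mem_subgroupOf, Subgroup.coe_mul, Subgroup.mem_inf]
    by_cases hb : (b : G) ∈ U
    · exact Or.inr ⟨⟨hb, b.2⟩, fun h => hv' ((U.mul_mem_cancel_left hb).1 h.1)⟩
    · exact Or.inl ⟨⟨mul_mem_of_index_two hU hc (hV b.2) (hV hv) hb hv', V.mul_mem b.2 hv⟩,
        fun h => hb h.1⟩
  have := ((U ⊓ V).subgroupOf V).card_mul_index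
  rw [Nat.card_congr (Subgroup.subgroupOfEquivOfLe inf_le_right).toEquiv, h1] at this
  rw [← this, mul_comm]

variable [Fintype Ω]

theorem mem_Fx {U : Subgroup G} {x : Ω} : x ∈ Fx Ω U ↔ ∀ g ∈ U, g • x = x := by
  simp [Fx]

theorem Fx_anti {U V : Subgroup G} (h : U ≤ V) : Fx Ω V ⊆ Fx Ω U := fun _ hx =>
  mem_Fx.2 fun g hg => mem_Fx.1 hx g (h hg)

theorem Fx_bot : Fx Ω (⊥ : Subgroup G) = univ := by
  ext x; simp [mem_Fx]

theorem exists_not_mem_Fx [FaithfulSMul G Ω] {U : Subgroup G} (h : U ≠ ⊥) : ∃ x, x ∉ Fx Ω U := by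
  by_contra hh
  push Not at hh
  refine h (eq_bot_iff.2 fun g hg => ?_)
  exact FaithfulSMul.eq_of_smul_eq_smul (α := Ω) fun x => by rw [mem_Fx.1 (hh x) g hg, one_smul]

theorem mem_Fx_St_iff [Finite G] {a b c : Ω} :
    c ∈ Fx Ω (St G a b) ↔ Nat.card (St3 G a b c) = Nat.card (St G a b) := by
  rw [mem_Fx]
  constructor
  · intro h
    rw [show St3 G a b c = St G a b from inf_eq_left.2 h]
  · intro h g hg
    rw [← Subgroup.eq_of_le_of_card_ge (St3_le a b c) h.ge] at hg
    exact hg.2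

open Classical in
theorem sum_orbit {H : Type*} [Group H] [MulAction H Ω] (x : Ω) :
    ∑ y ∈ univ.filter (fun y => y ∈ orbit H x), Nat.card (stabilizer H y) = Nat.card H := by
  rw [sum_congr rfl (g := fun _ => Nat.card (stabilizer H x)), sum_const, smul_eq_mul,
    ← Nat.card_congr (orbitProdStabilizerEquivGroup H x), Nat.card_prod, Nat.card_eq_fintype_card (α := orbit H x),
    Fintype.card_subtype]
  intro y hy
  obtain ⟨g, rfl⟩ := (mem_filter.1 hy).2
  exact (Nat.card_congr (stabilizerEquivStabilizer rfl).toEquiv).symm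

theorem dvd_sum_stab {H : Type*} [Group H] [MulAction H Ω] (S : Finset Ω)
    (hS : ∀ (g : H), ∀ x ∈ S, g • x ∈ S) : Nat.card H ∣ ∑ x ∈ S, Nat.card (stabilizer H x) := by
  classical
  rw [← sum_fiberwise S (Quotient.mk (orbitRel H Ω))]
  refine dvd_sum fun q _ => ?_
  rcases (S.filter fun x => Quotient.mk (orbitRel H Ω) x = q).eq_empty_or_nonempty with h | ⟨x, hx⟩
  · rw [h]; simp
  obtain ⟨hx', rfl⟩ := mem_filter.1 hx
  have : (S.filter fun y => Quotient.mk (orbitRel H Ω) y = Quotient.mk (orbitRel H Ω) x) =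
      univ.filter fun y => y ∈ orbit H x := by
    ext y
    simp only [mem_filter, mem_univ, true_and, Quotient.eq, orbitRel_apply]
    exact ⟨fun h => h.2, fun h => ⟨by obtain ⟨g, rfl⟩ := h; exact hS g x hx', h⟩⟩
  rw [this]
  convert dvd_refl _
  convert sum_orbit x

omit [Fintype Ω] in
theorem card_inf_stab (U : Subgroup G) (c : Ω) :
    Nat.card ↥(U ⊓ stabilizer G c) = Nat.card (stabilizer U c) :=
  Nat.card_congr
    { toFun := fun x => ⟨⟨x, x.2.1⟩, x.2.2⟩
      invFun := fun x => ⟨x.1, x.1.2, x.2⟩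
      left_inv := fun _ => rfl
      right_inv := fun _ => rfl }

/-- constants of a doubly transitive group -/
structure Ctx (G Ω : Type*) [Group G] [MulAction G Ω] [Fintype Ω] (t φ : ℕ) : Prop where
  tr : ∀ a b c d : Ω, a ≠ b → c ≠ d → ∃ g : G, g • a = c ∧ g • b = d
  ht : ∀ a b : Ω, a ≠ b → Nat.card (St G a b) = t
  hφ : ∀ a b : Ω, a ≠ b → (Fx Ω (St G a b)).card = φ

theorem sum_St3_eq (tr : ∀ a b c d : Ω, a ≠ b → c ≠ d → ∃ g : G, g • a = c ∧ g • b = d) (F : ℕ → ℕ)
    {a b a' b' : Ω} (hab : a ≠ b) (hab' : a' ≠ b') :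
    ∑ c, F (Nat.card (St3 G a b c)) = ∑ c, F (Nat.card (St3 G a' b' c)) := by
  obtain ⟨g, rfl, rfl⟩ := tr a b a' b' hab hab'
  exact Fintype.sum_equiv (MulAction.toPerm g) _ _ fun c => by
    rw [MulAction.toPerm_apply, card_St3_smul]

theorem card_filter_St3_eq (tr : ∀ a b c d : Ω, a ≠ b → c ≠ d → ∃ g : G, g • a = c ∧ g • b = d)
    (P : ℕ → Prop) [DecidablePred P] {a b a' b' : Ω} (hab : a ≠ b) (hab' : a' ≠ b') :
    (univ.filter fun c => P (Nat.card (St3 G a b c))).card =
      (univ.filter fun c => P (Nat.card (St3 G a' b' c))).card := by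
  rw [card_filter, card_filter]
  exact sum_St3_eq tr (fun m => if P m then 1 else 0) hab hab'

theorem exists_ctx [Finite G] (tr : ∀ a b c d : Ω, a ≠ b → c ≠ d → ∃ g : G, g • a = c ∧ g • b = d)
    {a b : Ω} (hab : a ≠ b) : Ctx G Ω (Nat.card (St G a b)) (Fx Ω (St G a b)).card := by
  have h1 : ∀ c d : Ω, c ≠ d → Nat.card (St G c d) = Nat.card (St G a b) := by
    intro c d hcd
    obtain ⟨g, rfl, rfl⟩ := tr a b c d hab hcd
    rw [← St3_self, card_St3_smul, St3_self]
  refine ⟨tr, h1, fun c d hcd => ?_⟩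
  have h2 : ∀ c d : Ω, c ≠ d → Fx Ω (St G c d) =
      univ.filter fun x => Nat.card (St3 G c d x) = Nat.card (St G a b) := by
    intro c d hcd
    ext x
    rw [mem_Fx_St_iff, h1 c d hcd, mem_filter]
    simp
  rw [h2 c d hcd, h2 a b hab]
  exact card_filter_St3_eq tr (fun m => m = Nat.card (St G a b)) hcd hab

namespace Ctx

variable [Finite G] {t φ : ℕ} (C : Ctx G Ω t φ)
include C

theorem St_eq {p x y : Ω} (hx : p ≠ x) (hy : p ≠ y) (h : y ∈ Fx Ω (St G p x)) : St G p x = St G p y :=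
  Subgroup.eq_of_le_of_card_ge (fun g hg => mem_St.2 ⟨(mem_St.1 hg).1, mem_Fx.1 h g hg⟩)
    (by rw [C.ht _ _ hx, C.ht _ _ hy])

/-- growth of subspaces -/
theorem fix_bound {U U' : Subgroup G} (hU : U ≤ U') {p : Ω} (hp : p ∈ Fx Ω U) (hp' : p ∉ Fx Ω U') :
    (φ - 1) * (Fx Ω U').card + 1 ≤ (Fx Ω U).card := by
  classical
  have hne : ∀ x ∈ Fx Ω U', p ≠ x := fun x hx e => hp' (e ▸ hx)
  have h1 : ((Fx Ω U').biUnion fun x => (Fx Ω (St G p x)).erase p) ⊆ (Fx Ω U).erase p := by
    intro y hy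
    obtain ⟨x, hx, hy⟩ := mem_biUnion.1 hy
    rw [mem_erase] at hy ⊢
    exact ⟨hy.1, Fx_anti (V := St G p x)
      (fun g hg => mem_St.2 ⟨mem_Fx.1 hp g hg, mem_Fx.1 hx g (hU hg)⟩) hy.2⟩
  have h2 := card_le_card h1
  rw [card_biUnion, card_erase_of_mem hp, sum_congr rfl (g := fun _ => φ - 1), sum_const, smul_eq_mul,
    mul_comm] at h2
  · have := card_pos.2 ⟨p, hp⟩
    omega
  · intro x hx
    rw [card_erase_of_mem ((mem_Fx (U := St G p x)).2 fun g hg => hg.1), C.hφ _ _ (hne x hx)]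
  · intro x hx x' hx' hxx'
    rw [Function.onFun, disjoint_left]
    intro y hy hy'
    rw [mem_erase] at hy hy'
    have e1 := (C.St_eq (hne x hx) hy.1.symm hy.2).trans (C.St_eq (hne x' hx') hy.1.symm hy'.2).symm
    have e2 : St G p x = St G x x' := Subgroup.eq_of_le_of_card_ge (H := St G p x) (K := St G x x')
      (fun g hg => mem_St.2 ⟨(mem_St.1 hg).2, (mem_St.1 (e1 ▸ hg : g ∈ St G p x')).2⟩) (by rw [C.ht _ _ hxx', C.ht _ _ (hne x hx)])
    refine hp' (mem_Fx.2 fun g hg => ?_)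
    have : g ∈ St G p x := e2 ▸ ⟨mem_Fx.1 hx g hg, mem_Fx.1 hx' g hg⟩
    exact this.1

omit [Fintype Ω] C in
theorem mate_eq {a b d : Ω} (h : 2 * Nat.card (St3 G a b d) = Nat.card (St G a b)) {x y : G}
    (hx : x ∈ St G a b) (hy : y ∈ St G a b) (hx' : x • d ≠ d) (hy' : y • d ≠ d) : x • d = y • d := by
  have := mul_mem_of_index_two (St3_le a b d) h (Subgroup.inv_mem _ hy) hx
    (fun e => hy' ((St3 G a b d).inv_mem_iff.1 e).2) (fun e => hx' e.2)
  exact (inv_smul_eq_iff.1 ((mul_smul _ _ _).symm.trans this.2))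

/-- the mate of `d` with respect to `a, b` lies on the line through `a` and `d` -/
theorem mate_mem {a b d : Ω} (hab : a ≠ b) (had : a ≠ d) (h : 2 * Nat.card (St3 G a b d) = t)
    {c : Ω} (hc : c ∉ Fx Ω (St3 G a b d)) (hc2 : 2 * Nat.card (St3 G a d c) = t)
    (hc4 : 4 * Nat.card (St3 G a b c) ≠ t) {x : G} (hx : x ∈ St G a b) (hx' : x • d ≠ d) :
    x • d ∈ Fx Ω (St G a d) := by
  have hac : a ≠ c := by
    rintro rfl
    exact hc (mem_Fx.2 fun g hg => hg.1.1)
  obtain ⟨v, hv, hvc⟩ : ∃ v ∈ St3 G a b d, v • c ≠ c := by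
    by_contra hh
    push Not at hh
    exact hc (mem_Fx.2 hh)
  have hle : St3 G a b d ≤ St G a d := by rw [St3_swap]; exact St3_le _ _ _
  have h1 := card_inf_of_index_two (St3_le a d c) hle (by rw [hc2, C.ht _ _ had]) hv fun e => hvc e.2
  obtain ⟨y, hy, hyd⟩ : ∃ y ∈ St3 G a b c, y • d ≠ d := by
    by_contra hh
    push Not at hh
    apply hc4
    have : St3 G a b c = St3 G a d c ⊓ St3 G a b d := by
      ext g
      simp only [Subgroup.mem_inf, mem_St3]
      exact ⟨fun e => ⟨⟨e.1, hh g (mem_St3.2 e), e.2.2⟩, e.1, e.2.1, hh g (mem_St3.2 e)⟩,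
        fun e => ⟨e.1.1, e.2.2.1, e.1.2.2⟩⟩
    rw [this]; omega
  have hb := h.trans (C.ht _ _ hab).symm
  have hc' : 2 * Nat.card (St3 G a c d) = Nat.card (St G a c) := by rw [St3_swap, hc2, C.ht _ _ hac]
  rw [mate_eq hb hx hy.1 hx' hyd]
  have hyc : y ∈ St G a c := ⟨hy.1.1, hy.2⟩
  have f1 : ∀ g ∈ St3 G a b d, g • y • d = y • d := fun g hg => by
    rw [← mul_smul]
    refine mate_eq hb (Subgroup.mul_mem _ hg.1 hy.1) hy.1 (fun e => hyd ?_) hyd
    rw [mul_smul, ← eq_inv_smul_iff] at e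
    exact e.trans ((St3 G a b d).inv_mem hg).2
  have f2 : ∀ g ∈ St3 G a d c, g • y • d = y • d := fun g hg => by
    rw [St3_swap] at hg
    rw [← mul_smul]
    refine mate_eq hc' (Subgroup.mul_mem _ hg.1 hyc) hyc (fun e => hyd ?_) hyd
    rw [mul_smul, ← eq_inv_smul_iff] at e
    exact e.trans ((St3 G a c d).inv_mem hg).2
  refine mem_Fx.2 fun g hg => ?_
  by_cases hg' : g ∈ St3 G a d c
  · exact f2 g hg'
  · have h3 := mul_mem_of_index_two (St3_le a d c) (by rw [hc2, C.ht _ _ had]) hg (hle hv) hg'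
      fun e => hvc e.2
    have := f2 _ h3
    rwa [mul_smul, f1 v hv] at this

theorem t_pos {a b : Ω} (hab : a ≠ b) : 0 < t := C.ht a b hab ▸ Nat.card_pos

omit [Finite G] in
theorem dvd_t {a b : Ω} (hab : a ≠ b) (c : Ω) : Nat.card (St3 G a b c) ∣ t :=
  C.ht a b hab ▸ Subgroup.card_dvd_of_le (St3_le a b c)

theorem tri {a b : Ω} (hab : a ≠ b) (c : Ω) : Nat.card (St3 G a b c) = t ∨
    2 * Nat.card (St3 G a b c) = t ∨ 3 * Nat.card (St3 G a b c) ≤ t := by
  obtain ⟨k, hk⟩ := C.dvd_t hab c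
  have := C.t_pos hab
  rcases k with _ | _ | _ | k
  · omega
  · omega
  · omega
  · right; right; rw [hk]; nlinarith

/-- if there is enough room then no orbit of a two-point stabiliser has length two -/
theorem no_two {R R4 : ℕ}
    (hR : ∀ a b : Ω, a ≠ b → (univ.filter fun c => 3 * Nat.card (St3 G a b c) ≤ t).card = R)
    (hR4 : ∀ a b : Ω, a ≠ b → (univ.filter fun c => 4 * Nat.card (St3 G a b c) = t).card = R4)
    (hB : ∀ a b d : Ω, a ≠ b → 2 * Nat.card (St3 G a b d) = t →
      (Fx Ω (St3 G a b d)).card + R + R4 < Fintype.card Ω)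
    {a b d : Ω} (hab : a ≠ b) : 2 * Nat.card (St3 G a b d) ≠ t := by
  classical
  intro h
  have ht := C.t_pos hab
  have key : ∀ a b : Ω, a ≠ b → 2 * Nat.card (St3 G a b d) = t → ∀ x ∈ St G a b, x • d ≠ d →
      a ≠ d ∧ x • d ∈ Fx Ω (St G a d) := by
    intro a b hab h x hx hx'
    have had : a ≠ d := by
      rintro rfl
      exact hx' hx.1
    obtain ⟨c, -, hc⟩ := exists_mem_notMem_of_card_lt_card (t := univ)
      (s := Fx Ω (St3 G a b d) ∪ (univ.filter fun c => 3 * Nat.card (St3 G a d c) ≤ t) ∪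
        univ.filter fun c => 4 * Nat.card (St3 G a b c) = t)
      (lt_of_le_of_lt ((card_union_le _ _).trans (Nat.add_le_add_right (card_union_le _ _) _)) (by
        rw [hR a d had, hR4 a b hab, card_univ]; exact hB a b d hab h))
    simp only [mem_union, mem_filter, mem_univ, true_and, not_or] at hc
    refine ⟨had, C.mate_mem hab had h hc.1.1 ?_ hc.2 hx hx'⟩
    rcases C.tri had c with h1 | h1 | h1
    · refine absurd (Fx_anti ?_ (mem_Fx_St_iff.2 (h1.trans (C.ht _ _ had).symm))) hc.1.1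
      rw [St3_swap]; exact St3_le _ _ _
    · exact h1
    · exact absurd h1 hc.1.2
  obtain ⟨x, hx, hx'⟩ : ∃ x ∈ St G a b, x • d ≠ d := by
    by_contra hh
    push Not at hh
    rw [mem_Fx_St_iff.1 (mem_Fx.2 hh), C.ht _ _ hab] at h
    omega
  obtain ⟨had, h1⟩ := key a b hab h x hx hx'
  obtain ⟨hbd, h2⟩ := key b a hab.symm (by rwa [St3_comm]) x (by rwa [St_comm]) hx'
  rw [St_comm] at h1 h2
  have h3 := (C.St_eq had.symm hx'.symm h1).trans (C.St_eq hbd.symm hx'.symm h2).symm
  have h4 : b ∈ Fx Ω (St G a d) := mem_Fx.2 fun g hg => by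
    rw [St_comm, h3] at hg
    exact hg.2
  rw [St3_swap, mem_Fx_St_iff.1 h4, C.ht _ _ had] at h
  omega

omit [Finite G] in
theorem two_le_φ {a b : Ω} (hab : a ≠ b) : 2 ≤ φ := by
  classical
  rw [← C.hφ a b hab, ← card_pair hab]
  refine card_le_card fun x hx => mem_Fx.2 fun g hg => ?_
  rcases mem_insert.1 hx with rfl | hx
  · exact hg.1
  · rw [mem_singleton.1 hx]; exact hg.2

theorem fix_le [FaithfulSMul G Ω] {U : Subgroup G} (h : U ≠ ⊥) :
    (φ - 1) * (Fx Ω U).card + 1 ≤ Fintype.card Ω := by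
  obtain ⟨p, hp⟩ := exists_not_mem_Fx (Ω := Ω) h
  have := C.fix_bound bot_le (by rw [Fx_bot]; exact mem_univ p) hp
  rwa [Fx_bot, card_univ] at this

theorem le_fix {a b c : Ω} (hab : a ≠ b) (h : Nat.card (St3 G a b c) ≠ t) :
    (φ - 1) * φ + 1 ≤ (Fx Ω (St3 G a b c)).card := by
  have := C.fix_bound (St3_le a b c) (p := c) (mem_Fx.2 fun g hg => hg.2)
    fun e => h ((mem_Fx_St_iff.1 e).trans (C.ht _ _ hab))
  rwa [C.hφ _ _ hab] at this

omit [Finite G] [Fintype Ω] C in
theorem ne_bot_of_card {U : Subgroup G} (h : Nat.card U ≠ 1) : U ≠ ⊥ := fun e => h (by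
  rw [e, Subgroup.card_bot])

omit [Finite G] in
theorem card_stab {a b : Ω} (hab : a ≠ b) (x : Ω) :
    Nat.card (stabilizer G x) = (Fintype.card Ω - 1) * t := by
  classical
  obtain ⟨y, hy⟩ : ∃ y, x ≠ y := by
    by_cases h : x = a
    · exact ⟨b, h ▸ hab⟩
    · exact ⟨a, h⟩
  rw [← sum_orbit (H := stabilizer G x) y, ← card_univ, ← card_erase_of_mem (mem_univ x), ← smul_eq_mul,
    ← sum_const]
  refine sum_congr ?_ fun z hz => ?_
  · ext z
    simp only [mem_filter, mem_univ, true_and, mem_erase, and_true]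
    constructor
    · rintro ⟨g, rfl⟩ e
      exact hy (MulAction.injective (g : G) (g.2.trans (Eq.symm e)))
    · intro hz
      obtain ⟨g, h1, h2⟩ := C.tr x y x z hy (Ne.symm hz)
      exact ⟨⟨g, h1⟩, h2⟩
  · rw [← card_inf_stab]
    exact C.ht x z (mem_erase.1 hz).1.symm

omit [Finite G] in
theorem card_G {a b : Ω} (hab : a ≠ b) :
    Nat.card G = Fintype.card Ω * ((Fintype.card Ω - 1) * t) := by
  classical
  rw [← sum_orbit (H := G) a, sum_congr rfl fun x _ => C.card_stab hab x, sum_const, smul_eq_mul,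
    ← card_univ]
  congr 2
  refine filter_true_of_mem fun x _ => ?_
  by_cases h : x = a
  · exact h ▸ mem_orbit_self _
  · obtain ⟨g, h1, -⟩ := C.tr a b x a hab h
    exact ⟨g, h1⟩

theorem not_seven [FaithfulSMul G Ω] {a b : Ω} (hab : a ≠ b) (hn : Fintype.card Ω = 7) : t ≠ 2 := by
  rintro rfl
  have hG : Nat.card G = 84 := by rw [C.card_G hab, hn]
  have ha : Nat.card (stabilizer G a) = 12 := by rw [C.card_stab hab, hn]
  have : Fact (Nat.Prime 7) := ⟨by norm_num⟩
  obtain ⟨P⟩ : Nonempty (Sylow 7 G) := inferInstance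
  have hP : Nat.card P = 7 := by
    rw [P.card_eq_multiplicity, hG, show (84 : ℕ) = 7 * 12 by norm_num,
      Nat.factorization_mul (by norm_num) (by norm_num), Finsupp.add_apply,
      Nat.Prime.factorization_self (by norm_num), Nat.factorization_eq_zero_of_not_dvd (by norm_num)]
    norm_num
  have hi : (P : Subgroup G).index = 12 := by
    have := (P : Subgroup G).card_mul_index
    rw [hP, hG] at this
    omega
  have h1 : Nat.card (Sylow 7 G) = 1 := by
    have h2 := P.card_dvd_index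
    have h3 := card_sylow_modEq_one 7 G
    rw [hi] at h2
    have h4 := Nat.le_of_dvd (by norm_num) h2
    unfold Nat.ModEq at h3
    interval_cases h : Nat.card (Sylow 7 G) <;> omega
  have : Subsingleton (Sylow 7 G) := (Nat.card_eq_one_iff_unique.1 h1).1
  have hN : (P : Subgroup G).Normal := Sylow.normal_of_subsingleton P
  have hc : IsCyclic P := isCyclic_of_prime_card hP
  have h5 : Nat.card (MulAut P) = 6 := by rw [IsCyclic.card_mulAut, hP]; decide
  let ψ : stabilizer G a →* MulAut P := (MulAut.conjNormal (H := (P : Subgroup G))).comp (Subgroup.subtype _)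
  have htr : ∀ x : Ω, ∃ p : P, (p : G) • a = x := by
    have h6 : orbit P a = Set.univ := by
      have h7 := (stabilizer P a).card_mul_index
      have h8 : Nat.card (stabilizer P a) = 1 := by
        rw [← card_inf_stab]
        exact Nat.eq_one_of_dvd_coprimes (show Nat.Coprime 7 12 by norm_num)
          ((Subgroup.card_dvd_of_le inf_le_left).trans hP.dvd)
          (by rw [← ha]; exact Subgroup.card_dvd_of_le inf_le_right)
      rw [h8, one_mul, index_stabilizer, hP] at h7
      exact Set.eq_of_subset_of_ncard_le (Set.subset_univ _)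
        (by rw [h7, Set.ncard_univ, Nat.card_eq_fintype_card, hn])
    intro x
    exact (h6.symm ▸ Set.mem_univ x : x ∈ orbit P a)
  have hψ : Function.Injective ψ := by
    rw [injective_iff_map_eq_one]
    intro g hg
    refine Subtype.ext (FaithfulSMul.eq_of_smul_eq_smul (α := Ω) fun x => ?_)
    obtain ⟨p, rfl⟩ := htr x
    have h8 : (g : G) * p * (g : G)⁻¹ = p := congrArg (fun f : MulAut P => ((f p : P) : G)) hg
    rw [OneMemClass.coe_one, one_smul, ← mul_smul, mul_inv_eq_iff_eq_mul.1 h8, mul_smul, g.2]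
  have h9 := Subgroup.card_dvd_of_injective ψ hψ
  rw [h5, ha] at h9
  omega

theorem no_three_cycle [FaithfulSMul G Ω] {a b : Ω} (hab : a ≠ b) (hn : 7 ≤ Fintype.card Ω)
    (hR : (univ.filter fun c => 3 * Nat.card (St3 G a b c) ≤ t).card = 3) : ¬ 3 ∣ t := by
  classical
  intro h3
  have : Fact (Nat.Prime 3) := ⟨Nat.prime_three⟩
  obtain ⟨g, hg⟩ := exists_prime_orderOf_dvd_card' (G := St G a b) 3 (by rwa [C.ht a b hab])
  have hinj : Function.Injective (toPermHom G Ω) := MulAction.toPerm_injective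
  have ho : orderOf (toPermHom G Ω g) = 3 := by
    rw [orderOf_injective _ hinj, Subgroup.orderOf_coe, hg]
  have hsupp : (toPermHom G Ω g).support ⊆ univ.filter fun c => 3 * Nat.card (St3 G a b c) ≤ t := by
    intro c hc
    rw [Equiv.Perm.mem_support] at hc
    rw [mem_filter]
    refine ⟨mem_univ _, ?_⟩
    rcases C.tri hab c with h1 | h1 | h1
    · exact absurd (mem_Fx.1 (mem_Fx_St_iff.2 (h1.trans (C.ht _ _ hab).symm)) g g.2) hc
    · exfalso
      have h4 := mul_mem_of_index_two (St3_le a b c) (h1.trans (C.ht _ _ hab).symm) g.2 g.2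
        (fun e => hc e.2) (fun e => hc e.2)
      have h5 : (g : G) = (g * g) * (g * g) := by
        have : (g : G) ^ 3 = 1 := by rw [← hg, ← Subgroup.orderOf_coe, pow_orderOf_eq_one]
        calc (g : G) = (g : G) ^ 3 * g := by rw [this, one_mul]
          _ = _ := by simp only [pow_succ, pow_zero, one_mul, mul_assoc]
      exact hc (h5 ▸ (Subgroup.mul_mem _ h4 h4).2)
    · exact h1
  have h6 : (toPermHom G Ω g).IsThreeCycle := by
    rw [← card_support_eq_three_iff]
    have h7 := card_le_card hsupp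
    have h8 : 3 ≤ (toPermHom G Ω g).support.card := by
      have h9 : (toPermHom G Ω g) ≠ 1 := fun e => by rw [e, orderOf_one] at ho; omega
      have h10 := Equiv.Perm.two_le_card_support_of_ne_one h9
      by_contra h11
      have h12 := Equiv.Perm.card_support_eq_two.1 (show (toPermHom G Ω g).support.card = 2 by omega)
      rw [h12.orderOf] at ho
      omega
    omega
  have h2 : IsMultiplyPretransitive (toPermHom G Ω).range Ω 2 :=
    is_two_pretransitive_iff.2 fun {x y z w} hxy hzw => by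
      obtain ⟨u, h1, h2⟩ := C.tr x y z w hxy hzw
      exact ⟨⟨_, u, rfl⟩, h1, h2⟩
  have hprim := isPreprimitive_of_is_two_pretransitive h2
  have hA := Equiv.Perm.alternatingGroup_le_of_isPreprimitive_of_isThreeCycle_mem hprim h6 ⟨g, rfl⟩
  obtain ⟨c, hc⟩ := card_pos.1 (show 0 < (univ.filter fun c => 3 * Nat.card (St3 G a b c) ≤ t).card by omega)
  obtain ⟨d, -, hd⟩ := exists_mem_notMem_of_card_lt_card (t := univ)
    (s := (univ.filter fun c => 3 * Nat.card (St3 G a b c) ≤ t) ∪ {a, b})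
    (lt_of_le_of_lt (card_union_le _ _) (by rw [hR, card_pair hab, card_univ]; omega))
  obtain ⟨e, -, he⟩ := exists_mem_notMem_of_card_lt_card (t := univ) (s := {a, b, c, d})
    (lt_of_le_of_lt card_le_four (by rw [card_univ]; omega))
  simp only [mem_union, mem_insert, mem_singleton, not_or] at hd he
  have hcd : c ≠ d := fun h => hd.1 (h ▸ hc)
  have ht := C.t_pos hab
  have hca : c ≠ a := by
    rintro rfl
    rw [mem_filter, St3_comm, St3_self, C.ht _ _ hab.symm] at hc
    omega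
  have hcb : c ≠ b := by
    rintro rfl
    rw [mem_filter, St3_self, C.ht _ _ hab] at hc
    omega
  obtain ⟨u, hu⟩ := hA (show Equiv.swap c d * Equiv.swap c e ∈ alternatingGroup Ω by
    rw [Equiv.Perm.mem_alternatingGroup, map_mul, Equiv.Perm.sign_swap hcd,
      Equiv.Perm.sign_swap (Ne.symm he.2.2.1)]; rfl)
  have hu' : ∀ x, u • x = Equiv.swap c d (Equiv.swap c e x) := fun x => congrArg (fun f => f x) hu
  have h1 := card_St3_smul u a b d
  rw [hu', hu', hu', Equiv.swap_apply_of_ne_of_ne hca.symm (Ne.symm he.1),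
    Equiv.swap_apply_of_ne_of_ne hca.symm (Ne.symm hd.2.1),
    Equiv.swap_apply_of_ne_of_ne hcb.symm (Ne.symm he.2.1),
    Equiv.swap_apply_of_ne_of_ne hcb.symm (Ne.symm hd.2.2),
    Equiv.swap_apply_of_ne_of_ne hcd.symm (Ne.symm he.2.2.2), Equiv.swap_apply_right] at h1
  apply hd.1
  rw [mem_filter] at hc ⊢
  exact ⟨mem_univ _, h1 ▸ hc.2⟩

theorem sum_le [FaithfulSMul G Ω] {a b : Ω} (hab : a ≠ b) (hn : 7 ≤ Fintype.card Ω) (ht : 2 ≤ t) :
    (2 * t - 1) * ∑ c, Nat.card (St3 G a b c) ≤ Fintype.card Ω * t ^ 2 := by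
  classical
  by_contra hcon
  rw [not_le] at hcon
  have hφ2 := C.two_le_φ hab
  have hne : St G a b ≠ ⊥ := ne_bot_of_card (by rw [C.ht _ _ hab]; omega)
  have hF := C.fix_le hne
  rw [C.hφ _ _ hab] at hF
  set n := Fintype.card Ω with hn'
  set sL := univ.filter fun c => Nat.card (St3 G a b c) = t with hsL
  set sT := univ.filter fun c => 2 * Nat.card (St3 G a b c) = t with hsT
  set sR := univ.filter fun c => 3 * Nat.card (St3 G a b c) ≤ t with hsR
  set s4 := univ.filter fun c => 4 * Nat.card (St3 G a b c) = t with hs4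
  have hL : sL.card = φ := by
    rw [← C.hφ _ _ hab]
    congr 1
    ext c
    rw [mem_Fx_St_iff, C.ht _ _ hab, mem_filter]
    simp
  have hsplit : ∀ F : Ω → ℕ, ∑ c, F c = ∑ c ∈ sL, F c + ∑ c ∈ sT, F c + ∑ c ∈ sR, F c := by
    intro F
    rw [sum_filter, sum_filter, sum_filter, ← sum_add_distrib, ← sum_add_distrib]
    refine sum_congr rfl fun c _ => ?_
    have := C.tri hab c
    split_ifs <;> omega
  have hcard : n = φ + sT.card + sR.card := by
    have := hsplit fun _ => 1
    simpa [hL] using this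
  obtain ⟨ρ, hρ⟩ : t ∣ ∑ c ∈ sR, Nat.card (St3 G a b c) := by
    have := dvd_sum_stab (H := St G a b) sR fun g x hx => by
      rw [mem_filter] at hx ⊢
      have h1 := card_St3_smul (g : G) a b x
      rw [g.2.1, g.2.2] at h1
      exact ⟨mem_univ _, by rw [← h1] at hx; exact hx.2⟩
    rw [C.ht _ _ hab] at this
    convert this using 2 with c
    exact card_inf_stab _ _
  have hsum : 2 * ∑ c, Nat.card (St3 G a b c) = t * (2 * φ + sT.card + 2 * ρ) := by
    rw [hsplit, hρ, sum_congr rfl fun c (hc : c ∈ sL) => (mem_filter.1 hc).2, sum_const, hL, smul_eq_mul,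
      mul_add, mul_add, mul_sum, sum_congr rfl fun c (hc : c ∈ sT) => (mem_filter.1 hc).2, sum_const,
      smul_eq_mul]
    ring
  have hfail : 2 * (n * t) < (2 * t - 1) * (2 * φ + sT.card + 2 * ρ) := by
    apply Nat.lt_of_mul_lt_mul_left (a := t)
    calc t * (2 * (n * t)) = 2 * (n * t ^ 2) := by ring
      _ < 2 * ((2 * t - 1) * ∑ c, Nat.card (St3 G a b c)) := by omega
      _ = (2 * t - 1) * (2 * ∑ c, Nat.card (St3 G a b c)) := by ring
      _ = _ := by rw [hsum]; ring
  have h44 : s4 ⊆ sR := fun c hc => by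
    rw [mem_filter] at hc ⊢
    exact ⟨hc.1, by omega⟩
  have hR4 : s4.card + 12 * ρ ≤ 4 * sR.card := by
    apply Nat.le_of_mul_le_mul_left (c := t) _ (by omega)
    have h1 : ∑ c ∈ sR, (12 * Nat.card (St3 G a b c) + if c ∈ s4 then t else 0) ≤ ∑ c ∈ sR, 4 * t := by
      refine sum_le_sum fun c hc => ?_
      have := (mem_filter.1 hc).2
      split_ifs with h
      · have := (mem_filter.1 h).2
        omega
      · omega
    rw [sum_add_distrib, ← mul_sum, hρ, sum_ite_mem, inter_eq_right.2 h44, sum_const, sum_const,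
      smul_eq_mul, smul_eq_mul] at h1
    nlinarith
  have hρ0 : ρ = 0 → sR.card = 0 := by
    rintro rfl
    rw [mul_zero, sum_eq_zero_iff] at hρ
    rw [card_eq_zero, eq_empty_iff_forall_notMem]
    exact fun c hc => Nat.card_pos.ne' (hρ c hc)
  obtain ⟨u, hu⟩ : ∃ u, φ + 2 * ρ = sR.card + u := by
    refine Nat.exists_eq_add_of_le ?_
    by_contra h
    have h1 : 2 * φ + sT.card + 2 * ρ ≤ n := by omega
    have h2 := Nat.mul_le_mul (show 2 * t - 1 ≤ 2 * t by omega) h1
    nlinarith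
  have hfail' : n < (2 * t - 1) * u := by
    obtain ⟨t', ht'⟩ : ∃ t', 2 * t = t' + 1 := ⟨2 * t - 1, by omega⟩
    rw [show 2 * φ + sT.card + 2 * ρ = n + u by omega, show 2 * t - 1 = t' by omega, mul_comm n,
      ← mul_assoc, ht'] at hfail
    rw [show 2 * t - 1 = t' by omega]
    nlinarith
  have hu0 : 0 < u := by
    rcases u with _ | u
    · omega
    · omega
  by_cases hsemi : ∀ c, Nat.card (St3 G a b c) ≠ t → Nat.card (St3 G a b c) = 1
  · have h1 : ∑ c, Nat.card (St3 G a b c) = φ * t + (n - φ) := by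
      rw [hsplit, sum_congr rfl fun c (hc : c ∈ sL) => (mem_filter.1 hc).2, sum_const, hL, smul_eq_mul,
        sum_congr rfl fun c (hc : c ∈ sT) => hsemi c (by have := (mem_filter.1 hc).2; omega),
        sum_congr rfl fun c (hc : c ∈ sR) => hsemi c (by have := (mem_filter.1 hc).2; omega)]
      simp only [sum_const, smul_eq_mul]
      omega
    have h2 : t ∣ n - φ := by
      have := dvd_sum_stab (H := St G a b) (univ : Finset Ω) fun _ _ _ => mem_univ _
      rw [C.ht _ _ hab, ← sum_congr rfl fun c _ => card_inf_stab (St G a b) c] at this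
      exact (Nat.dvd_add_right (dvd_mul_left t φ)).1 (h1 ▸ this)
    rw [h1] at hcon
    obtain ⟨m, hm⟩ : ∃ m, n = φ + m := ⟨n - φ, by omega⟩
    obtain ⟨t', rfl⟩ : ∃ t', t = t' + 1 := ⟨t - 1, by omega⟩
    rw [hm, Nat.add_sub_cancel_left, show 2 * (t' + 1) - 1 = 2 * t' + 1 by omega] at hcon
    rw [hm, Nat.add_sub_cancel_left] at h2
    have h3 : m * t' < φ * (t' + 1) := by
      apply Nat.lt_of_mul_lt_mul_left (a := t')
      nlinarith
    have h4 : m < 2 * φ := by
      by_contra h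
      have := Nat.mul_le_mul_right t' (not_lt.1 h)
      nlinarith
    obtain ⟨φ', rfl⟩ : ∃ φ', φ = φ' + 1 := ⟨φ - 1, by omega⟩
    rw [Nat.add_sub_cancel] at hF
    have h5 : φ' = 2 := by
      have : φ' < 3 := by nlinarith
      omega
    subst h5
    have h6 : m = 4 ∨ m = 5 := by omega
    rcases h6 with rfl | rfl
    · have h7 : t' = 1 := by
        have : t' < 3 := by omega
        interval_cases t' <;> omega
      subst h7
      exact C.not_seven hab (by omega) rfl
    · have : t' < 2 := by omega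
      interval_cases t' <;> omega
  push Not at hsemi
  obtain ⟨c₀, hc₀, hc₀'⟩ := hsemi
  have hB1 := C.le_fix hab hc₀
  have hB2 := C.fix_le (ne_bot_of_card hc₀')
  have ht3 : t ≠ 2 := by
    rintro rfl
    have h1 := Nat.le_of_dvd (by omega) (C.dvd_t hab c₀)
    have h2 : 0 < Nat.card (St3 G a b c₀) := Nat.card_pos
    omega
  have hB : ∀ a b d : Ω, 2 * Nat.card (St3 G a b d) = t →
      (φ - 1) * (Fx Ω (St3 G a b d)).card + 1 ≤ n := fun a b d h =>
    C.fix_le (ne_bot_of_card (by omega))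
  have hno : (∀ B, (φ - 1) * B + 1 ≤ n → B + sR.card + s4.card < n) → sT.card = 0 := by
    intro h
    rw [card_eq_zero, eq_empty_iff_forall_notMem]
    intro d hd
    exact C.no_two (fun a' b' h' => card_filter_St3_eq C.tr (fun m => 3 * m ≤ t) h' hab)
      (fun a' b' h' => card_filter_St3_eq C.tr (fun m => 4 * m = t) h' hab)
      (fun a' b' d' _ h' => h _ (hB a' b' d' h')) hab (mem_filter.1 hd).2
  have h4R := card_le_card h44
  obtain rfl | rfl | hφ4 : φ = 2 ∨ φ = 3 ∨ 4 ≤ φ := by omega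
  · by_cases hR0 : sR.card = 0
    · have := hno fun B h => by omega
      omega
    · have h1 : ρ = 1 := by omega
      have h2 : sR.card = 3 := by omega
      refine C.no_three_cycle hab hn h2 ?_
      obtain ⟨x, y, z, hxy, hxz, hyz, h⟩ := card_eq_three.1 h2
      have hx : x ∈ sR := by simp [h]
      have hy : y ∈ sR := by simp [h]
      have hz : z ∈ sR := by simp [h]
      rw [h, sum_insert (by simp [hxy, hxz]), sum_pair hyz, h1] at hρ
      have := (mem_filter.1 hx).2
      have := (mem_filter.1 hy).2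
      have := (mem_filter.1 hz).2
      omega
  · by_cases h15 : n = 15 ∧ sR.card = 4
    · have h1 : u = 1 := by omega
      subst h1
      obtain ⟨d, hd⟩ := card_pos.1 (show 0 < sT.card by omega)
      have hd2 := (mem_filter.1 hd).2
      have h2 := hB a b d hd2
      have h3 := C.le_fix hab (c := d) (by omega)
      have h4 : sL ⊆ Fx Ω (St3 G a b d) := fun c hc => Fx_anti (St3_le a b d)
        (mem_Fx_St_iff.2 ((mem_filter.1 hc).2.trans (C.ht _ _ hab).symm))
      obtain ⟨d', hd', hd''⟩ := exists_mem_notMem_of_card_lt_card (t := sT)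
        (s := Fx Ω (St3 G a b d) \ sL) (by rw [card_sdiff_of_subset h4]; omega)
      have hd3 := (mem_filter.1 hd').2
      have h5 : d' ∉ Fx Ω (St3 G a b d) := fun e => hd'' (mem_sdiff.2 ⟨e, fun e' => by
        have := (mem_filter.1 e').2; omega⟩)
      obtain ⟨v, hv, hvc⟩ : ∃ v ∈ St3 G a b d, v • d' ≠ d' := by
        by_contra hh
        push Not at hh
        exact h5 (mem_Fx.2 hh)
      have h6 := card_inf_of_index_two (St3_le a b d') (St3_le a b d) (hd3.trans (C.ht _ _ hab).symm) hv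
        fun e => hvc e.2
      have h7 := C.fix_bound (U := St3 G a b d' ⊓ St3 G a b d) inf_le_right
        (mem_Fx.2 fun g hg => hg.1.2) h5
      have h8 := C.fix_le (U := St3 G a b d' ⊓ St3 G a b d) (ne_bot_of_card (by omega))
      omega
    · have := hno fun B h => by omega
      omega
  · obtain ⟨φ', rfl⟩ : ∃ φ', φ = φ' + 1 := ⟨φ - 1, by omega⟩
    rw [Nat.add_sub_cancel] at hB1 hB2 hno
    have h1 : 13 ≤ (Fx Ω (St3 G a b c₀)).card := by nlinarith
    have h2 : 13 * φ' + 1 ≤ n := by nlinarith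
    have := hno fun B h => by
      have : 3 * B + 1 ≤ n := by nlinarith
      omega
    omega

end Ctx

end CfsgLib.Perm.Derange
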