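import Mathlib
import Cfsg.Agent.Lib.Perm.MultiTransModFour

/-!
Triply transitive groups whose point stabilisers have an abelian normal subgroup of odd order that is
regular on the remaining points.
-/

set_option autoImplicit false

namespace CfsgLib.Perm

open MulAction Subgroup

variable {G : Type*} [Group G] {Ω : Type*} [MulAction G Ω]

theorem exists_fixed_of_pow [Finite Ω] {p : ℕ} (hp : p.Prime) {x : G} (hx : x ^ p = 1) (S : Set Ω)
    (hS : ∀ y ∈ S, x • y ∈ S) (h : ¬ p ∣ S.ncard) : ∃ y ∈ S, x • y = y := by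
  classical
  have := Fact.mk hp
  have := Fintype.ofFinite S
  have h1 : ∀ y, toPermHom G Ω x y ∈ S ↔ y ∈ S := fun y => ⟨fun hy => by
    have h2 : ∀ k : ℕ, x ^ k • x • y ∈ S := fun k => by
      induction k with
      | zero => simpa using hy
      | succ k ih => rw [pow_succ', mul_smul]; exact hS _ ih
    have := h2 (p - 1)
    rwa [← mul_smul, ← pow_succ, Nat.sub_add_cancel hp.one_le, hx, one_smul] at this, hS y⟩
  obtain ⟨y, hy⟩ := Equiv.Perm.exists_fixed_point_of_prime (p := p) (n := 1)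
    (σ := (toPermHom G Ω x).subtypePerm h1) (by rwa [← Nat.card_eq_fintype_card]) (by
      rw [pow_one, Equiv.Perm.subtypePerm_pow]
      ext y
      change (toPermHom G Ω x ^ p) y = y
      rw [← map_pow, hx, map_one]
      rfl)
  exact ⟨y, y.2, congrArg Subtype.val hy⟩

/-- A family of abelian groups of odd order, each regular off its fixed point. -/
structure Mou (N : Ω → Subgroup G) : Prop where
  fix : ∀ x, ∀ u ∈ N x, u • x = x
  conj : ∀ (g : G) x, ∀ u ∈ N x, g * u * g⁻¹ ∈ N (g • x)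
  comm : ∀ x, ∀ u ∈ N x, ∀ v ∈ N x, u * v = v * u
  tr : ∀ x a b, a ≠ x → b ≠ x → ∃ u ∈ N x, u • a = b
  reg : ∀ x a, a ≠ x → ∀ u ∈ N x, u • a = a → u = 1
  odd : ∀ x, ∀ u ∈ N x, u * u = 1 → u = 1
  three : ∀ a b c a' b' c' : Ω, a ≠ b → a ≠ c → b ≠ c → a' ≠ b' → a' ≠ c' → b' ≠ c' →
    ∃ g : G, g • a = a' ∧ g • b = b' ∧ g • c = c'

/-- corresponding elements of two root groups -/
structure Pr (N : Ω → Subgroup G) (i o : Ω) (u v : G) : Prop where
  hu : u ∈ N i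
  hv : v ∈ N o
  eq : v • i = u • o

/-- the stabiliser of `a, b` in `H` has at most two orbits on the remaining points -/
def Two (H : Subgroup G) (a b : Ω) : Prop := ∀ c : Fin 3 → Ω, (∀ j, c j ≠ a ∧ c j ≠ b) →
  ∃ j k, j ≠ k ∧ ∃ h ∈ H, h • a = a ∧ h • b = b ∧ h • c j = c k

/-- the setwise stabiliser of a pair -/
def swapStab (H : Subgroup G) (a b : Ω) : Subgroup G where
  carrier := {g | g ∈ H ∧ (g • a = a ∧ g • b = b ∨ g • a = b ∧ g • b = a)}
  one_mem' := ⟨H.one_mem, Or.inl ⟨one_smul _ _, one_smul _ _⟩⟩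
  mul_mem' := fun {x y} hx hy => ⟨H.mul_mem hx.1 hy.1, by
    rcases hx.2 with h | h <;> rcases hy.2 with h' | h' <;> simp [mul_smul, h.1, h.2, h'.1, h'.2]⟩
  inv_mem' := fun {x} hx => ⟨H.inv_mem hx.1, by
    rcases hx.2 with h | h <;> simp [inv_smul_eq_iff, h.1, h.2]⟩

namespace Mou

variable {N : Ω → Subgroup G} (M : Mou N) {i o : Ω} {u v u' v' : G}
include M

theorem eq_of_smul {x a : Ω} (ha : a ≠ x) (hu : u ∈ N x) (hv : v ∈ N x) (h : u • a = v • a) : u = v :=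
  (inv_mul_eq_one.1 (M.reg x a ha _ (mul_mem (inv_mem hv) hu) (by rw [mul_smul, h, inv_smul_smul]))).symm

theorem smul_ne {x a : Ω} (ha : a ≠ x) (hu : u ∈ N x) : u • a ≠ x := fun h =>
  ha (MulAction.injective u (h.trans (M.fix x u hu).symm))

theorem conj' {g : G} {x y : Ω} (h : g • x = y) (hu : u ∈ N x) : g * u * g⁻¹ ∈ N y := h ▸ M.conj g x u hu

theorem conj_eq {g : G} {x a : Ω} (ha : a ≠ x) (hx : g • x = x) (hg : g • a = a) (hu : u ∈ N x)
    (hv : v ∈ N x) (h : g • u • a = v • a) : g * u * g⁻¹ = v :=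
  M.eq_of_smul ha (M.conj' hx hu) hv (by rw [mul_smul, mul_smul, inv_smul_eq_iff.2 hg.symm, h])

theorem exists_pr (hu : u ∈ N i) (h1 : u ≠ 1) (hio : i ≠ o) : ∃ v, Pr N i o u v := by
  obtain ⟨v, hv, h⟩ := M.tr o i (u • o) hio fun e => h1 (M.reg i o hio.symm u hu e)
  exact ⟨v, hu, hv, h⟩

variable [Finite G] (hio : i ≠ o)
include hio

theorem special (h : Pr N i o u v) : v⁻¹ • i = u⁻¹ • o := by
  have hai : u • o ≠ i := M.smul_ne hio.symm h.hu
  have hao : u • o ≠ o := h.eq ▸ M.smul_ne hio h.hv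
  have hv1 : v ≠ 1 := fun e => hai (by rw [← h.eq, e, one_smul])
  have hbi : v⁻¹ • i ≠ i := fun e => hv1 (inv_eq_one.1 (M.reg o i hio _ (inv_mem h.hv) e))
  obtain ⟨u', hu', e'⟩ := M.tr i o (v⁻¹ • i) hio.symm hbi
  obtain ⟨g, gi, go, ga⟩ := M.three i o (u • o) i o (v⁻¹ • i) hio hai.symm hao.symm hio hbi.symm
    (M.smul_ne hio (inv_mem h.hv)).symm
  have h1 := M.conj_eq hio go gi h.hv (inv_mem h.hv) (by rw [h.eq, ga])
  have h2 := M.conj_eq hio.symm gi go h.hu hu' (by rw [ga, e'])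
  have h3 := M.conj_eq hio.symm gi go hu' h.hu (by
    rw [e', ← h.eq]
    conv_rhs => rw [show v = g * v⁻¹ * g⁻¹ by rw [← conj_inv, h1, inv_inv]]
    simp [mul_smul, inv_smul_eq_iff.2 gi.symm])
  by_contra hne
  have hw : (u * u') • o ≠ o := fun e => hne (by
    rw [← e', eq_inv_of_mul_eq_one_right (M.reg i o hio.symm _ (mul_mem h.hu hu') e)])
  obtain ⟨k, ki, ko, ka⟩ := M.three i o (u • o) i o ((u * u') • o) hio hai.symm hao.symm hio
    (M.smul_ne hio.symm (mul_mem h.hu hu')).symm hw.symm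
  have h4 : stabilizer G i ⊓ stabilizer G o ⊓ stabilizer G (u • o) =
      (stabilizer G i ⊓ stabilizer G o ⊓ stabilizer G (u • o)).map (MulAut.conj k).toMonoidHom := by
    refine eq_of_le_of_card_ge (fun x hx => ?_) (card_map_of_injective (MulAut.conj k).injective).le
    obtain ⟨⟨xi, xo⟩, xa⟩ : (x • i = i ∧ x • o = o) ∧ x • u • o = u • o := hx
    have e1 := M.conj_eq hio xo xi h.hv h.hv (by rw [h.eq, xa])
    have e2 := M.conj_eq hio.symm xi xo h.hu h.hu xa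
    have e3 := M.conj_eq hio.symm xi xo hu' hu' (by
      rw [e']
      conv_rhs => rw [← e1]
      simp [mul_smul, inv_smul_eq_iff.2 xi.symm])
    refine ⟨k⁻¹ * x * k, ⟨⟨?_, ?_⟩, ?_⟩, by simp [mul_assoc]⟩
    · change (k⁻¹ * x * k) • i = i
      rw [mul_smul, mul_smul, ki, xi, inv_smul_eq_iff, ki]
    · change (k⁻¹ * x * k) • o = o
      rw [mul_smul, mul_smul, ko, xo, inv_smul_eq_iff, ko]
    · change (k⁻¹ * x * k) • u • o = u • o
      rw [mul_smul, mul_smul, ka, inv_smul_eq_iff, ka]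
      conv_rhs => rw [← e2, ← e3]
      simp [mul_smul, inv_smul_eq_iff.2 xo.symm]
  have h5 : g ∈ stabilizer G i ⊓ stabilizer G o ⊓ stabilizer G (u • o) := by
    rw [h4]
    refine ⟨k⁻¹ * g * k, ⟨⟨?_, ?_⟩, ?_⟩, by simp [mul_assoc]⟩
    · change (k⁻¹ * g * k) • i = i
      rw [mul_smul, mul_smul, ki, gi, inv_smul_eq_iff, ki]
    · change (k⁻¹ * g * k) • o = o
      rw [mul_smul, mul_smul, ko, go, inv_smul_eq_iff, ko]
    · change (k⁻¹ * g * k) • u • o = u • o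
      rw [mul_smul, mul_smul, ka, inv_smul_eq_iff, ka]
      conv_rhs => rw [M.comm i _ h.hu _ hu', show u' * u = g * (u * u') * g⁻¹ by
        rw [← conj_mul, h2, h3]]
      simp [mul_smul, inv_smul_eq_iff.2 go.symm]
  have h6 := M.eq_of_smul hio (inv_mem h.hv) h.hv (ga.symm.trans (h5.2.trans h.eq.symm))
  exact hv1 (M.odd o v h.hv (inv_eq_iff_mul_eq_one.1 h6))

theorem m_i (h : Pr N i o u v) : (u * v⁻¹ * u) • i = o := by
  rw [mul_smul, mul_smul, M.fix i u h.hu, M.special hio h, smul_inv_smul]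

omit [Finite G] hio in
theorem m_o (h : Pr N i o u v) : (u * v⁻¹ * u) • o = i := by
  rw [mul_smul, mul_smul, ← h.eq, inv_smul_smul, M.fix i u h.hu]

theorem neg {g w w' : G} (gi : g • i = o) (go : g • o = i) (hw : w ∈ N i) (hw' : w' ∈ N i)
    (h : g • w • o = w' • o) : g • w⁻¹ • o = w'⁻¹ • o := by
  have := M.special hio (u := w') (v := g * w * g⁻¹) ⟨hw', M.conj' gi hw, by
    rw [mul_smul, mul_smul, inv_smul_eq_iff.2 go.symm, h]⟩
  rw [← this]
  simp [mul_smul, inv_smul_eq_iff.2 go.symm]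

theorem m_a (h : Pr N i o u v) : (u * v⁻¹ * u) • u • o = u⁻¹ • o := by
  have := M.neg hio (M.m_i hio h) (M.m_o h) (inv_mem h.hu) h.hu (by
    rw [mul_smul, smul_inv_smul, mul_smul, M.fix o _ (inv_mem h.hv)])
  rwa [inv_inv] at this

theorem key (h : Pr N i o u v) (h' : Pr N i o u' v') (h1 : u * u' ≠ 1) :
    (u * v⁻¹ * u)⁻¹ • (u * u') • o = (u * v⁻¹ * u) • (u * u') • o := by
  have huu := mul_mem h.hu h'.hu
  have hvv := mul_mem h.hv h'.hv
  obtain ⟨w, hw, e⟩ := M.tr i o ((u * v⁻¹ * u) • (u * u') • o) hio.symm fun e =>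
    h1 (M.reg i o hio.symm _ huu (MulAction.injective _ (e.trans (M.m_o h).symm)))
  obtain ⟨c, hc, ec⟩ := M.tr i o ((v * v') • i) hio.symm fun e => h1 (by
    have e1 := eq_inv_of_mul_eq_one_right (M.reg o i hio _ hvv e)
    rw [M.eq_of_smul hio.symm h'.hu (inv_mem h.hu) (by rw [← h'.eq, e1, M.special hio h]), mul_inv_cancel])
  have e1 := M.special hio ⟨hc, hvv, ec.symm⟩
  have e2 := M.neg hio (M.m_i hio h) (M.m_o h) huu hw e.symm
  have e3 : c⁻¹ = u⁻¹ * w⁻¹ := M.eq_of_smul hio.symm (inv_mem hc) (mul_mem (inv_mem h.hu) (inv_mem hw)) (by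
    rw [← e1, M.comm o _ h.hv _ h'.hv, mul_inv_rev, mul_smul, M.special hio h', mul_smul, ← e2,
      M.comm i _ h.hu _ h'.hu]
    simp [mul_smul])
  rw [← e]
  refine MulAction.injective u ?_
  rw [← mul_inv_rev, inv_inj, M.comm i _ hw _ h.hu] at e3
  change u • _ = u • _
  rw [← mul_smul u w, ← e3, ec, mul_smul v, h'.eq]
  simp [mul_smul]

theorem m_inj (h : Pr N i o u v) (h' : Pr N i o u' v') (e : u * v⁻¹ * u = u' * v'⁻¹ * u') :
    u' = u ∨ u' = u⁻¹ := by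
  refine or_iff_not_imp_right.2 fun h1 => ?_
  have huu := mul_mem h.hu h'.hu
  refine M.eq_of_smul (a := (u * v⁻¹ * u)⁻¹ • (u * u') • o) (fun e1 => h1 ?_) h'.hu h.hu ?_
  · rw [inv_smul_eq_iff, M.m_i hio h] at e1
    exact eq_inv_of_mul_eq_one_right (M.reg i o hio.symm _ huu e1)
  · calc _ = (v' * v) • i := by
          rw [e, M.comm i _ h.hu _ h'.hu, mul_smul v', h.eq]; simp [mul_smul]
      _ = _ := by rw [M.comm o _ h'.hv _ h.hv, mul_smul v, h'.eq]; simp [mul_smul]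

variable [FaithfulSMul G Ω]

theorem m_sq (h : Pr N i o u v) : (u * v⁻¹ * u) * (u * v⁻¹ * u) = 1 := by
  refine inv_eq_iff_mul_eq_one.1 (FaithfulSMul.eq_of_smul_eq_smul (α := Ω) fun y => ?_)
  by_cases yi : y = i
  · rw [yi, inv_smul_eq_iff, M.m_i hio h, M.m_o h]
  obtain ⟨w, hw, rfl⟩ := M.tr i o y hio.symm yi
  by_cases w1 : w = 1
  · rw [w1, one_smul, inv_smul_eq_iff, M.m_o h, M.m_i hio h]
  by_cases w2 : u⁻¹ * w = 1
  · rw [← inv_mul_eq_one.1 w2, inv_smul_eq_iff, M.m_a hio h, mul_smul, smul_inv_smul, mul_smul,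
      M.fix o _ (inv_mem h.hv)]
  obtain ⟨v', h'⟩ := M.exists_pr (mul_mem (inv_mem h.hu) hw) w2 hio
  have := M.key hio h h' (by simpa using w1)
  rwa [mul_inv_cancel_left] at this

theorem m_cube (h : Pr N i o u v) : (u * v⁻¹ * u * u) ^ 3 = 1 := by
  have h1 : (u * v⁻¹ * u) * u * (u * v⁻¹ * u)⁻¹ = v⁻¹ :=
    M.eq_of_smul hio (M.conj' (M.m_i hio h) h.hu) (inv_mem h.hv) (by
      rw [mul_smul, mul_smul _ u, inv_smul_eq_iff.2 (M.m_o h).symm, M.m_a hio h, M.special hio h])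
  have h2 := M.m_sq hio h
  rw [inv_eq_of_mul_eq_one_right h2] at h1
  generalize hm : u * v⁻¹ * u = m at *
  calc (m * u) ^ 3 = m * (u * (m * u * m) * u) := by simp [pow_succ, mul_assoc]
    _ = 1 := by rw [h1, hm, h2]

variable [Finite Ω] {H : Subgroup G} (hN : ∀ x, N x ≤ H)
  (h3 : ∀ x ∈ H, x ^ 3 = 1 → ∀ y : Ω, x • y = y → x = 1)

omit [Finite G] [FaithfulSMul G Ω] in
theorem ncard_insert {W : Subgroup G} (hW : W ≤ N i) :
    (insert i ((· • o) '' (W : Set G))).ncard = Nat.card W + 1 := by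
  rw [Set.ncard_insert_of_notMem, Set.InjOn.ncard_image]
  · rfl
  · exact fun x hx y hy e => M.eq_of_smul hio.symm (hW hx) (hW hy) e
  · rintro ⟨w, hw, e⟩
    exact M.smul_ne hio.symm (hW hw) e

include hN h3

theorem three_dvd (h : Pr N i o u v) {W : Subgroup G} (hW : W ≤ N i) (hu : u ∈ W)
    (hm : ∀ w ∈ W, ∀ w' ∈ N i, (u * v⁻¹ * u) • w • o = w' • o → w' ∈ W) : 3 ∣ Nat.card W + 1 := by
  by_contra hn
  rw [← M.ncard_insert hio hW] at hn
  have e0 : (u * v⁻¹ * u * u) • i = o := by rw [mul_smul, M.fix i u h.hu, M.m_i hio h]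
  obtain ⟨y, -, hy⟩ := exists_fixed_of_pow Nat.prime_three (M.m_cube hio h) _ (by
    rintro _ (rfl | ⟨w, hw, rfl⟩)
    · exact Or.inr ⟨1, W.one_mem, by rw [e0]; exact one_smul _ _⟩
    refine or_iff_not_imp_left.2 fun e => ?_
    obtain ⟨w', hw', e'⟩ := M.tr i o _ hio.symm e
    exact ⟨w', hm _ (mul_mem hu hw) w' hw' (by rw [e']; simp only [mul_smul]), e'⟩) hn
  have hu := hN _ h.hu
  rw [h3 _ (mul_mem (mul_mem (mul_mem hu (inv_mem (hN _ h.hv))) hu) hu) (M.m_cube hio h) y hy,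
    one_smul] at e0
  exact hio e0

theorem invol (hn : 3 ∣ Nat.card Ω) {t : G} (ht : t * t = 1) (ti : t • i = i) (tO : t • o = o) {a : Ω}
    (ai : a ≠ i) (ao : a ≠ o) (ta : t • a = a) : t = 1 := by
  have ht' : t⁻¹ = t := inv_eq_of_mul_eq_one_right ht
  let φ : N i →* N i := MonoidHom.mk' (fun w => ⟨w⁻¹ * (t * w * t⁻¹), mul_mem (inv_mem w.2) (M.conj' ti w.2)⟩)
    fun a b => Subtype.ext (by
      have e1 := M.comm i _ (inv_mem b.2) _ (mul_mem (inv_mem a.2) (M.conj' ti a.2))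
      change (a * b : G)⁻¹ * (t * (a * b) * t⁻¹) = (a : G)⁻¹ * (t * a * t⁻¹) * ((b : G)⁻¹ * (t * b * t⁻¹))
      rw [← mul_assoc _ (b : G)⁻¹, ← e1]
      group)
  have hp : ∀ w, w ∈ φ.ker.map (N i).subtype ↔ w ∈ N i ∧ t * w * t⁻¹ = w := fun w =>
    ⟨by rintro ⟨w, hw, rfl⟩; exact ⟨w.2, (inv_mul_eq_one.1 (congrArg Subtype.val hw)).symm⟩,
      fun hw => ⟨⟨w, hw.1⟩, Subtype.ext (inv_mul_eq_one.2 hw.2.symm), rfl⟩⟩
  have hsq : ∀ x ∈ N i, ∀ y ∈ N i, x * x = y * y → x = y := fun x hx y hy e =>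
    mul_inv_eq_one.1 (M.odd i _ (mul_mem hx (inv_mem hy)) (by
      calc _ = x * (y⁻¹ * x) * y⁻¹ := by group
        _ = 1 := by rw [M.comm i _ (inv_mem hy) _ hx, ← mul_assoc, e]; group))
  have hq : ∀ w, w ∈ φ.range.map (N i).subtype ↔ w ∈ N i ∧ t * w * t⁻¹ = w⁻¹ := fun w => by
    constructor
    · rintro ⟨_, ⟨w, rfl⟩, rfl⟩
      refine ⟨(φ w).2, ?_⟩
      change t * ((w : G)⁻¹ * (t * w * t⁻¹)) * t⁻¹ = ((w : G)⁻¹ * (t * w * t⁻¹))⁻¹
      calc _ = t * (w : G)⁻¹ * (t * t)⁻¹ * t * (t * t) * w * (t * t)⁻¹ := by group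
        _ = _ := by rw [ht]; simp [mul_assoc, ht']
    · rintro ⟨hw, e⟩
      obtain ⟨s, hs⟩ := Finite.injective_iff_surjective.1 (show Function.Injective fun x : N i => x * x from
        fun x y e => Subtype.ext (hsq _ x.2 _ y.2 (congrArg Subtype.val e))) ⟨w, hw⟩
      have hs : (s : G) * s = w := congrArg Subtype.val hs
      have e1 := hsq _ (M.conj' ti s.2) _ (inv_mem s.2) (by rw [← mul_inv_rev, hs, ← e, ← hs]; group)
      refine ⟨φ s⁻¹, ⟨_, rfl⟩, ?_⟩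
      change (s : G)⁻¹⁻¹ * (t * (s : G)⁻¹ * t⁻¹) = w
      rw [← hs, inv_inv, ← conj_inv, e1, inv_inv]
  have hc := φ.ker.card_mul_index
  rw [index_ker, ← card_map_of_injective (N i).subtype_injective,
    ← card_map_of_injective (K := φ.range) (N i).subtype_injective] at hc
  have hcard := M.ncard_insert hio (le_refl (N i))
  rw [show insert i ((· • o) '' (N i : Set G)) = Set.univ from Set.eq_univ_of_forall fun y =>
    or_iff_not_imp_left.2 fun e => M.tr i o y hio.symm e, Set.ncard_univ] at hcard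
  obtain ⟨u, hu, rfl⟩ := M.tr i o a hio.symm ai
  obtain ⟨v, h⟩ := M.exists_pr hu (by rintro rfl; exact ao (one_smul _ _)) hio
  have e1 := M.conj_eq hio.symm ti tO hu hu ta
  have e2 := M.conj_eq hio tO ti h.hv h.hv (by rw [h.eq, ta])
  have h1 := M.three_dvd hio hN h3 h (fun w hw => ((hp w).1 hw).1) ((hp u).2 ⟨hu, e1⟩) fun w hw w' hw' e =>
    (hp w').2 ⟨hw', M.conj_eq hio.symm ti tO hw' hw' (by
      rw [← e]
      conv_rhs => rw [← ((hp w).1 hw).2, ← e1, ← e2]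
      simp [mul_smul, inv_smul_eq_iff.2 tO.symm])⟩
  by_cases h0 : φ.range.map (N i).subtype = ⊥
  · refine FaithfulSMul.eq_of_smul_eq_smul (α := Ω) fun y => ?_
    rw [one_smul]
    by_cases yi : y = i
    · rw [yi, ti]
    obtain ⟨w, hw, rfl⟩ := M.tr i o y hio.symm yi
    have e3 : w⁻¹ * (t * w * t⁻¹) = 1 := mem_bot.1 (h0 ▸ ⟨φ ⟨w, hw⟩, ⟨_, rfl⟩, rfl⟩)
    conv_rhs => rw [inv_mul_eq_one.1 e3]
    simp [mul_smul, inv_smul_eq_iff.2 tO.symm]
  obtain ⟨u, hu, hu1⟩ := (bot_or_exists_ne_one _).resolve_left h0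
  obtain ⟨v, h⟩ := M.exists_pr ((hq u).1 hu).1 hu1 hio
  have e1 := ((hq u).1 hu).2
  have e2 := M.conj_eq hio tO ti h.hv (inv_mem h.hv) (by
    rw [h.eq, M.special hio h, ← e1]; simp [mul_smul, inv_smul_eq_iff.2 tO.symm])
  have e3 : t * (u * v⁻¹ * u) * t⁻¹ = u * v⁻¹ * u := by
    rw [← inv_eq_of_mul_eq_one_right (M.m_sq hio h)]
    calc _ = (t * u * t⁻¹)⁻¹ * (t * v * t⁻¹) * (t * u * t⁻¹)⁻¹ := by group
      _ = _ := by rw [e1, e2, ← inv_eq_of_mul_eq_one_right (M.m_sq hio h)]; group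
  have h2 := M.three_dvd hio hN h3 h (fun w hw => ((hq w).1 hw).1) hu fun w hw w' hw' e =>
    (hq w').2 ⟨hw', M.conj_eq hio.symm ti tO hw' (inv_mem hw') (by
      rw [← M.neg hio (M.m_i hio h) (M.m_o h) ((hq w).1 hw).1 hw' e, ← e]
      conv_rhs => rw [← ((hq w).1 hw).2, ← e3]
      simp [mul_smul, inv_smul_eq_iff.2 tO.symm])⟩
  exfalso
  rw [hcard, ← hc] at hn
  generalize Nat.card (φ.ker.map (N i).subtype) = x at *
  generalize Nat.card (φ.range.map (N i).subtype) = y at *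
  obtain ⟨x', rfl⟩ : ∃ x', x = 3 * x' + 2 := ⟨x / 3, by omega⟩
  obtain ⟨y', rfl⟩ : ∃ y', y = 3 * y' + 2 := ⟨y / 3, by omega⟩
  rw [show (3 * x' + 2) * (3 * y' + 2) + 1 = 3 * (3 * x' * y' + 2 * x' + 2 * y' + 1) + 2 by ring] at hn
  omega

theorem two_elt (hn : 3 ∣ Nat.card Ω) {t : G} {k : ℕ} (ht : t ^ 2 ^ k = 1) (ti : t • i = i) (tO : t • o = o)
    {a : Ω} (ai : a ≠ i) (ao : a ≠ o) (ta : t • a = a) : t = 1 := by
  induction k with
  | zero => simpa using ht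
  | succ k ih =>
    exact ih (M.invol hio hN h3 hn (by rw [← pow_two, ← pow_mul, ← pow_succ, ht])
      (pow_mem (show t ∈ stabilizer G i from ti) _) (pow_mem (show t ∈ stabilizer G o from tO) _) ai ao
      (pow_mem (show t ∈ stabilizer G a from ta) _))

theorem two (hn : 3 ∣ Nat.card Ω) : Two H i o := by
  classical
  intro c hc
  have := Fact.mk Nat.prime_two
  obtain ⟨P, -, hPC, hP, hi⟩ := Coprime.exists_le_sylow_relIndex (p := 2) (bot_le : ⊥ ≤ swapStab H i o)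
    IsPGroup.of_bot
  have key : ∀ j, ∃ d ∈ H, d • i = i ∧ d • o = o ∧ ∃ u v, Pr N i o u v ∧ u • o = d • c j ∧
      u * v⁻¹ * u ∈ P := fun j => by
    obtain ⟨u, hu, e⟩ := M.tr i o (c j) hio.symm (hc j).1
    obtain ⟨v, h⟩ := M.exists_pr hu (by rintro rfl; exact (hc j).2 (by rw [← e, one_smul])) hio
    have hm : u * v⁻¹ * u ∈ swapStab H i o := ⟨mul_mem (mul_mem (hN _ hu) (inv_mem (hN _ h.hv))) (hN _ hu),
      Or.inr ⟨M.m_i hio h, M.m_o h⟩⟩
    obtain ⟨k, hk, h1⟩ := Coprime.exists_conj_smul_le_sylow hPC hP hi (zpowers_le.2 hm)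
      (IsPGroup.of_card_dvd_pow (n := 1) (by
        rw [Nat.card_zpowers, pow_one]; exact orderOf_dvd_of_pow_eq_one (by rw [pow_two, M.m_sq hio h])))
    have h2 := Coprime.mem_conj_smul_iff.1 (h1 (mem_zpowers _))
    obtain ⟨d, hd, di, dO, h4⟩ : ∃ d ∈ H, d • i = i ∧ d • o = o ∧ d * (u * v⁻¹ * u) * d⁻¹ ∈ P := by
      rcases (inv_mem hk).2 with e | e
      · exact ⟨k⁻¹, inv_mem hk.1, e.1, e.2, by rwa [inv_inv]⟩
      · refine ⟨k⁻¹ * (u * v⁻¹ * u), mul_mem (inv_mem hk.1) hm.1, ?_, ?_, by simpa [mul_assoc] using h2⟩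
        · rw [mul_smul, M.m_i hio h, e.2]
        · rw [mul_smul, M.m_o h, e.1]
    refine ⟨d, hd, di, dO, d * u * d⁻¹, d * v * d⁻¹, ⟨M.conj' di hu, M.conj' dO h.hv, ?_⟩, ?_, ?_⟩
    · simp [mul_smul, inv_smul_eq_iff.2 di.symm, inv_smul_eq_iff.2 dO.symm, h.eq]
    · simp [mul_smul, inv_smul_eq_iff.2 dO.symm, e]
    · simpa [mul_assoc] using h4
  choose d hd di dO u v h e hm using key
  let S := P ⊓ (stabilizer G i ⊓ stabilizer G o)
  have := Fintype.ofFinite S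
  have hs : ∀ p : Fin 3 × S, Pr N i o (p.2 * u p.1 * (p.2 : G)⁻¹) (p.2 * v p.1 * (p.2 : G)⁻¹) := fun p =>
    ⟨M.conj' p.2.2.2.1 (h _).hu, M.conj' p.2.2.2.2 (h _).hv, by
      simp [mul_smul, show (p.2 : G)⁻¹ • i = i from (inv_mem p.2.2).2.1,
        show (p.2 : G)⁻¹ • o = o from (inv_mem p.2.2).2.2, (h _).eq]⟩
  let f : Fin 3 × S → S := fun p => ⟨(u 0 * (v 0)⁻¹ * u 0) *
    ((p.2 * u p.1 * (p.2 : G)⁻¹) * (p.2 * v p.1 * (p.2 : G)⁻¹)⁻¹ * (p.2 * u p.1 * (p.2 : G)⁻¹)),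
    P.mul_mem (hm 0) (by simpa [mul_assoc] using P.mul_mem (P.mul_mem p.2.2.1 (hm p.1)) (P.inv_mem p.2.2.1)),
    mem_stabilizer_iff.2 (by rw [mul_smul, M.m_i hio (hs p), M.m_o (h 0)]),
    mem_stabilizer_iff.2 (by rw [mul_smul, M.m_o (hs p), M.m_i hio (h 0)])⟩
  obtain ⟨y, hy⟩ := Fintype.exists_lt_card_fiber_of_mul_lt_card f (n := 2) (by
    have : 0 < Fintype.card S := Fintype.card_pos
    rw [Fintype.card_prod, Fintype.card_fin]; omega)
  obtain ⟨p, q, r, hp, hq, hr, pq, pr, qr⟩ := Finset.two_lt_card_iff.1 hy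
  simp only [Finset.mem_filter, Finset.mem_univ, true_and] at hp hq hr
  have h1 := M.m_inj hio (hs p) (hs q) (mul_left_cancel (congrArg Subtype.val (hp.trans hq.symm)))
  have h2 := M.m_inj hio (hs p) (hs r) (mul_left_cancel (congrArg Subtype.val (hp.trans hr.symm)))
  by_contra hcon
  have inj : ∀ p q : Fin 3 × S, (p.2 * u p.1 * (p.2 : G)⁻¹ : G) = q.2 * u q.1 * (q.2 : G)⁻¹ → p = q := fun p q e1 => by
    have e2 : ((q.2⁻¹ * p.2 : S) : G) • d p.1 • c p.1 = d q.1 • c q.1 := by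
      have := congrArg (· • o) e1
      simpa [mul_smul, show (p.2 : G)⁻¹ • o = o from (inv_mem p.2.2).2.2, inv_smul_eq_iff,
        show (q.2 : G)⁻¹ • o = o from (inv_mem q.2.2).2.2, e] using this
    have hx := (q.2⁻¹ * p.2).2
    have e3 : p.1 = q.1 := by_contra fun hne => hcon ⟨_, _, hne, (d q.1)⁻¹ * (q.2⁻¹ * p.2 : S) * d p.1,
      mul_mem (mul_mem (inv_mem (hd _)) (hPC hx.1).1) (hd _),
      by rw [mul_smul, mul_smul, di, hx.2.1, inv_smul_eq_iff, di],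
      by rw [mul_smul, mul_smul, dO, hx.2.2, inv_smul_eq_iff, dO],
      by rw [mul_smul, mul_smul, e2, inv_smul_smul]⟩
    obtain ⟨k, hk⟩ := hP ⟨_, hx.1⟩
    rw [e3] at e2
    have := M.two_elt hio hN h3 hn (congrArg Subtype.val hk) hx.2.1 hx.2.2
      (fun e => (hc _).1 (MulAction.injective _ (e.trans (di _).symm)))
      (fun e => (hc _).2 (MulAction.injective _ (e.trans (dO _).symm))) e2
    exact Prod.ext e3 (inv_mul_eq_one.1 (Subtype.ext this)).symm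
  rcases h1 with h1 | h1
  · exact pq (inj _ _ h1).symm
  rcases h2 with h2 | h2
  · exact pr (inj _ _ h2).symm
  · exact qr (inj _ _ (h1.trans h2.symm))

end Mou

end CfsgLib.Perm
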